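import Mathlib
import Cfsg.Agent.Lib.TwBN.RootGen
import Cfsg.Agent.Lib.Linalg.BinaryAniso
import Cfsg.Agent.Lib.Classical.Orth.Generation
import Cfsg.Agent.Lib.Classical.Orth.Models

/-!
`O⁻_{2m+2}(F)` as a group of matrices over the quadratic extension `K` of `F`, in a basis
`e_i, f_i, u, v` with `u, v` conjugate over `F`.
-/

set_option autoImplicit false
set_option linter.unusedSectionVars false
set_option linter.unusedSimpArgs false

namespace Cfsg.Agent.Lib.OmM.Basic

open Matrix QuadraticAlgebra Sum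
open Cfsg.Agent.Lib.Linalg.BinaryAniso Cfsg.Agent.Lib.Classical.Orth.Models
open Cfsg.Agent.Lib.Classical.Orth.Basic

variable {F : Type*} [Field F] [Fintype F] {m : ℕ} {a b : F}

/-- The index set. -/
abbrev IF (m : ℕ) := (Fin m ⊕ Fin m) ⊕ Fin 2

/-- The opposition. -/
def rv : IF m → IF m
  | inl (inl i) => inl (inr i)
  | inl (inr i) => inl (inl i)
  | inr z => inr (1 - z)

/-- The Frobenius on indices. -/
def sw : IF m → IF m
  | inl x => inl x
  | inr z => inr (1 - z)

@[simp] theorem rv_ee (i : Fin m) : rv (inl (inl i) : IF m) = inl (inr i) := rfl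
@[simp] theorem rv_ff (i : Fin m) : rv (inl (inr i) : IF m) = inl (inl i) := rfl
@[simp] theorem rv_zz (z : Fin 2) : rv (inr z : IF m) = inr (1 - z) := rfl
@[simp] theorem sw_inl (x : Fin m ⊕ Fin m) : sw (inl x : IF m) = inl x := rfl
@[simp] theorem sw_zz (z : Fin 2) : sw (inr z : IF m) = inr (1 - z) := rfl

theorem one_sub_one_sub (z : Fin 2) : 1 - (1 - z) = z := by
  revert z
  decide

@[simp] theorem rv_rv (x : IF m) : rv (rv x) = x := by
  rcases x with (i | i) | z
  · rfl
  · rfl
  · simp [one_sub_one_sub]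

@[simp] theorem sw_sw (x : IF m) : sw (sw x) = x := by
  rcases x with x | z
  · rfl
  · simp [one_sub_one_sub]

theorem rv_injective : Function.Injective (rv : IF m → IF m) :=
  Function.LeftInverse.injective rv_rv

/-- The opposition as a permutation. -/
def rvP : Equiv.Perm (IF m) := Function.Involutive.toPerm rv rv_rv

@[simp] theorem rvP_apply (x : IF m) : rvP x = rv x := rfl

/-- The levels. -/
def oo : IF m → ℕ
  | inl (inl i) => i.val
  | inl (inr i) => 2 * m - i.val
  | inr _ => m

@[simp] theorem oo_ee (i : Fin m) : oo (inl (inl i) : IF m) = i.val := rfl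
@[simp] theorem oo_ff (i : Fin m) : oo (inl (inr i) : IF m) = 2 * m - i.val := rfl
@[simp] theorem oo_zz (z : Fin 2) : oo (inr z : IF m) = m := rfl

theorem oo_rv (x : IF m) : oo (rv x) = 2 * m - oo x := by
  rcases x with (i | i) | z
  · simp
  · have := i.2
    simp
    omega
  · simp
    omega

theorem oo_le (x : IF m) : oo x ≤ 2 * m := by
  rcases x with (i | i) | z
  · have := i.2
    simp
    omega
  · simp
  · simp
    omega

/-- The isometry group. -/
abbrev OO (m : ℕ) (a b : F) := ↥(Cfsg.isometryGroup F ⇑(minusForm m F a b))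

variable [hab : Fact (∀ r : F, r ^ 2 ≠ -b + a * r)]

local notation "K" => KK a b
local notation "ι" => algebraMap F (KK a b)

theorem om_add : (ω : KK a b) + star ω = ι a := by
  rw [← algebraMap_trace_eq_add_star, trace_omega]

theorem om_mul : (ω : KK a b) * star ω = ι b := by
  rw [← algebraMap_norm_eq_mul_star, norm_apply]
  simp

theorem star_alg (x : F) : star (ι x) = ι x := by
  ext <;> simp

theorem dl_ne : star (ω : KK a b) - ω ≠ 0 :=
  sub_ne_zero.2 (star_omega_ne rfl)

/-- The change of basis on the plane. -/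
noncomputable def C2 : Matrix (Fin 2) (Fin 2) K := !![1, ω; 1, star ω]

/-- Its inverse. -/
noncomputable def C2' : Matrix (Fin 2) (Fin 2) K :=
  !![star ω / (star ω - ω), -ω / (star ω - ω); -1 / (star ω - ω), 1 / (star ω - ω)]

theorem c2_aux1 {L : Type*} [Field L] (w w' : L) (h : w' - w ≠ 0) :
    !![1, w; 1, w'] * !![w' / (w' - w), -w / (w' - w); -1 / (w' - w), 1 / (w' - w)] = (1 : Matrix (Fin 2) (Fin 2) L) := by
  apply Matrix.ext
  intro i j
  fin_cases i <;> fin_cases j <;> simp [Matrix.mul_apply, Fin.sum_univ_two] <;> field_simp <;> ring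

theorem c2_aux2 {L : Type*} [Field L] (w w' : L) (h : w' - w ≠ 0) :
    !![w' / (w' - w), -w / (w' - w); -1 / (w' - w), 1 / (w' - w)] * !![1, w; 1, w'] = (1 : Matrix (Fin 2) (Fin 2) L) := by
  apply Matrix.ext
  intro i j
  fin_cases i <;> fin_cases j <;> simp [Matrix.mul_apply, Fin.sum_univ_two] <;> field_simp <;> ring

theorem C2_mul : C2 (a := a) (b := b) * C2' = 1 := c2_aux1 _ _ dl_ne

theorem C2'_mul : C2' (a := a) (b := b) * C2 = 1 := c2_aux2 _ _ dl_ne

/-- The change of basis. -/
noncomputable def CC (m : ℕ) (a b : F) [Fact (∀ r : F, r ^ 2 ≠ -b + a * r)] : Matrix (IF m) (IF m) (KK a b) :=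
  fromBlocks 1 0 0 C2

/-- Its inverse. -/
noncomputable def CC' (m : ℕ) (a b : F) [Fact (∀ r : F, r ^ 2 ≠ -b + a * r)] : Matrix (IF m) (IF m) (KK a b) :=
  fromBlocks 1 0 0 C2'

theorem CC_mul : CC m a b * CC' m a b = 1 := by
  simp [CC, CC', fromBlocks_multiply, C2_mul]

theorem CC'_mul : CC' m a b * CC m a b = 1 := by
  simp [CC, CC', fromBlocks_multiply, C2'_mul]

/-- The matrix of an element over `K`. -/
noncomputable def gK (g : OO m a b) : Matrix (IF m) (IF m) K :=
  ((g : GL (IF m) F) : Matrix (IF m) (IF m) F).map ι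

theorem gK_mul (g h : OO m a b) : gK (g * h) = gK g * gK h := by
  simp [gK, Matrix.map_mul]

theorem gK_one : gK (1 : OO m a b) = 1 := by
  simp [gK]

/-- The matrix in the basis `e_i, f_i, u, v`. -/
noncomputable def phi : OO m a b →* Matrix (IF m) (IF m) K where
  toFun g := CC m a b * gK g * CC' m a b
  map_one' := by
    rw [gK_one, mul_one, CC_mul]
  map_mul' g h := by
    rw [gK_mul]
    calc CC m a b * (gK g * gK h) * CC' m a b
        = CC m a b * gK g * (1 : Matrix _ _ _) * gK h * CC' m a b := by simp [Matrix.mul_assoc]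
      _ = _ := by
        rw [← CC'_mul]
        simp only [Matrix.mul_assoc]

theorem phi_def (g : OO m a b) : phi g = CC m a b * gK g * CC' m a b := rfl

theorem gK_of_phi (g : OO m a b) : gK g = CC' m a b * phi g * CC m a b := by
  rw [phi_def]
  calc gK g = (CC' m a b * CC m a b) * gK g * (CC' m a b * CC m a b) := by
        rw [CC'_mul, one_mul, mul_one]
    _ = _ := by simp only [Matrix.mul_assoc]

theorem phi_inj : Function.Injective (phi : OO m a b →* Matrix (IF m) (IF m) K) := by
  intro g h e
  have e2 : gK g = gK h := by rw [gK_of_phi, gK_of_phi, e]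
  apply Subtype.ext
  apply Units.ext
  ext r c
  have := congrFun (congrFun e2 r) c
  simp only [gK, Matrix.map_apply] at this
  exact (algebraMap F K).injective this

/-! ### The coordinates of a rational vector -/

/-- The coordinates of a rational vector. -/
noncomputable def hat (x : IF m → F) : IF m → K := CC m a b *ᵥ (fun y => ι (x y))

theorem CC_inl (w : IF m) (y : Fin m ⊕ Fin m) : CC m a b (inl y) w = if w = inl y then 1 else 0 := by
  rcases w with w | w
  · simp [CC, Matrix.one_apply, eq_comm]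
  · simp [CC]

@[simp] theorem hat_inl (x : IF m → F) (y : Fin m ⊕ Fin m) : hat (a := a) (b := b) x (inl y) = ι (x (inl y)) := by
  simp only [hat, mulVec, dotProduct, CC_inl]
  simp

theorem hat_u (x : IF m → F) : hat (a := a) (b := b) x (inr 0) = ι (x (inr 0)) + ω * ι (x (inr 1)) := by
  simp [hat, CC, mulVec, dotProduct, Fintype.sum_sum_type, C2, Fin.sum_univ_two]

theorem hat_v (x : IF m → F) : hat (a := a) (b := b) x (inr 1) = ι (x (inr 0)) + star ω * ι (x (inr 1)) := by
  simp [hat, CC, mulVec, dotProduct, Fintype.sum_sum_type, C2, Fin.sum_univ_two]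

theorem CC'_inl (w : IF m) (y : Fin m ⊕ Fin m) : CC' m a b w (inl y) = if w = inl y then 1 else 0 := by
  rcases w with w | w
  · simp [CC', Matrix.one_apply]
  · simp [CC']

/-- The column of a hyperbolic index. -/
theorem phi_col (g : OO m a b) (r : IF m) (y : Fin m ⊕ Fin m) :
    phi g r (inl y) = hat (fun w => ((g : GL (IF m) F) : Matrix (IF m) (IF m) F) w (inl y)) r := by
  rw [phi_def, Matrix.mul_apply]
  simp only [CC'_inl, mul_ite, mul_one, mul_zero, Finset.sum_ite_eq', Finset.mem_univ, if_true]
  rfl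

/-- The entries at hyperbolic indices. -/
theorem phi_hh (g : OO m a b) (x y : Fin m ⊕ Fin m) :
    phi g (inl x) (inl y) = ι (((g : GL (IF m) F) : Matrix (IF m) (IF m) F) (inl x) (inl y)) := by
  rw [phi_col, hat_inl]

/-! ### The form -/

/-- The split form in the coordinates `e_i, f_i, u, v`. -/
def qy (y : IF m → KK a b) : KK a b :=
  (∑ i : Fin m, y (inl (inl i)) * y (inl (inr i))) + y (inr 0) * y (inr 1)

/-- Its polar form. -/
def pol (x y : IF m → KK a b) : KK a b := ∑ r, x r * y (rv r)

theorem pol_expand (x y : IF m → KK a b) : pol x y =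
    (∑ i : Fin m, (x (inl (inl i)) * y (inl (inr i)) + x (inl (inr i)) * y (inl (inl i)))) +
      (x (inr 0) * y (inr 1) + x (inr 1) * y (inr 0)) := by
  simp only [pol, Fintype.sum_sum_type, Fin.sum_univ_two, rv, Finset.sum_add_distrib]
  simp

theorem qy_add (x y : IF m → KK a b) : qy (x + y) = qy x + qy y + pol x y := by
  rw [pol_expand]
  simp only [qy, Pi.add_apply]
  have h : ∀ i : Fin m, (x (inl (inl i)) + y (inl (inl i))) * (x (inl (inr i)) + y (inl (inr i))) =
      x (inl (inl i)) * x (inl (inr i)) + y (inl (inl i)) * y (inl (inr i)) +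
      (x (inl (inl i)) * y (inl (inr i)) + x (inl (inr i)) * y (inl (inl i))) := fun i => by ring
  simp only [h, Finset.sum_add_distrib]
  ring

/-- The base change of the form. -/
def qK (x : IF m → KK a b) : KK a b :=
  (∑ i : Fin m, x (inl (inl i)) * x (inl (inr i))) +
    (x (inr 0) ^ 2 + ι a * x (inr 0) * x (inr 1) + ι b * x (inr 1) ^ 2)

theorem qy_CC (w : IF m → KK a b) : qy (CC m a b *ᵥ w) = qK w := by
  have e1 : ∀ y : Fin m ⊕ Fin m, (CC m a b *ᵥ w) (inl y) = w (inl y) := by
    intro y
    simp only [mulVec, dotProduct, CC_inl]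
    simp
  have e2 : (CC m a b *ᵥ w) (inr 0) = w (inr 0) + ω * w (inr 1) := by
    simp [CC, mulVec, dotProduct, Fintype.sum_sum_type, C2, Fin.sum_univ_two]
  have e3 : (CC m a b *ᵥ w) (inr 1) = w (inr 0) + star ω * w (inr 1) := by
    simp [CC, mulVec, dotProduct, Fintype.sum_sum_type, C2, Fin.sum_univ_two]
  simp only [qy, qK, e1, e2, e3, ← om_add, ← om_mul]
  ring

/-- The base change of the form on `F`-combinations. -/
theorem qK_split (x y : IF m → F) :
    qK (fun r => ι (x r) + ω * ι (y r)) =
      ι (minusForm m F a b x) + ω * ι (QuadraticMap.polar (⇑(minusForm m F a b)) x y)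
        + ω * ω * ι (minusForm m F a b y) := by
  rw [coe_minusForm, polar_minus]
  simp only [qK, Cfsg.quadFormMinus, map_add, map_sum, map_mul, map_pow]
  have h : ∀ i : Fin m, (ι (x (inl (inl i))) + ω * ι (y (inl (inl i)))) *
      (ι (x (inl (inr i))) + ω * ι (y (inl (inr i)))) =
      ι (x (inl (inl i))) * ι (x (inl (inr i))) +
      ω * (ι (x (inl (inl i))) * ι (y (inl (inr i))) + ι (y (inl (inl i))) * ι (x (inl (inr i)))) +
      ω * ω * (ι (y (inl (inl i))) * ι (y (inl (inr i)))) := fun i => by ring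
  simp only [h, Finset.sum_add_distrib, ← Finset.mul_sum]
  rw [map_ofNat]
  ring

theorem eq_split (z : KK a b) : z = ι z.re + ω * ι z.im := by
  ext <;> simp

theorem gK_mulVec_split (g : OO m a b) (w : IF m → KK a b) :
    gK g *ᵥ w = fun r =>
      ι ((((g : GL (IF m) F) : Matrix (IF m) (IF m) F) *ᵥ fun t => (w t).re) r) +
      ω * ι ((((g : GL (IF m) F) : Matrix (IF m) (IF m) F) *ᵥ fun t => (w t).im) r) := by
  funext r
  simp only [mulVec, dotProduct, gK, Matrix.map_apply, map_sum, map_mul, Finset.mul_sum, ← Finset.sum_add_distrib]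
  refine Finset.sum_congr rfl fun t _ => ?_
  conv_lhs => rw [eq_split (w t)]
  ring

theorem qK_gK (g : OO m a b) (w : IF m → KK a b) : qK (gK g *ᵥ w) = qK w := by
  rw [gK_mulVec_split, qK_split]
  have h1 := Q_act g (fun t => (w t).re)
  have h2 := Q_act g (fun t => (w t).im)
  have h3 := polar_act g (fun t => (w t).re) (fun t => (w t).im)
  simp only [act] at h1 h2 h3
  rw [h1, h2, h3, ← qK_split]
  congr 1
  funext r
  exact (eq_split _).symm

/-- The matrices over `K` preserve the split form. -/
theorem qy_phi (g : OO m a b) (y : IF m → KK a b) : qy (phi g *ᵥ y) = qy y := by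
  have e : phi g *ᵥ y = CC m a b *ᵥ (gK g *ᵥ (CC' m a b *ᵥ y)) := by
    rw [phi_def, Matrix.mulVec_mulVec, Matrix.mulVec_mulVec, Matrix.mul_assoc]
  rw [e, qy_CC, qK_gK, ← qy_CC, Matrix.mulVec_mulVec, CC_mul, Matrix.one_mulVec]

theorem pol_phi (g : OO m a b) (x y : IF m → KK a b) : pol (phi g *ᵥ x) (phi g *ᵥ y) = pol x y := by
  have h1 := qy_add (phi g *ᵥ x) (phi g *ᵥ y)
  rw [← Matrix.mulVec_add, qy_phi, qy_phi, qy_phi, qy_add] at h1
  linear_combination -h1

theorem pol_single (r : IF m) (y : IF m → KK a b) : pol (Pi.single r 1) y = y (rv r) := by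
  classical
  simp [pol, Pi.single_apply]

/-- Orthogonality of the matrices. -/
theorem phi_inv (g : OO m a b) (r c : IF m) : phi g⁻¹ r c = phi g (rv c) (rv r) := by
  classical
  have key : ∀ r c : IF m, ∑ x, phi g (rv x) (rv r) * phi g x c = if r = c then 1 else 0 := by
    intro r c
    have h := pol_phi g (Pi.single c 1) (Pi.single (rv r) 1)
    rw [pol_single, Pi.single_apply] at h
    simp only [rv_injective.eq_iff] at h
    simp only [Matrix.mulVec_single_one, pol] at h
    have e : ∀ x, phi g (rv x) (rv r) * phi g x c = phi g x c * phi g (rv x) (rv r) := fun x => mul_comm _ _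
    simp only [e]
    rw [show (if r = c then (1 : KK a b) else 0) = if c = r then 1 else 0 by simp only [eq_comm]]
    exact h
  let S : Matrix (IF m) (IF m) (KK a b) := Matrix.of fun r c => phi g (rv c) (rv r)
  have h1 : S * phi g = 1 := by
    apply Matrix.ext
    intro r c
    rw [Matrix.mul_apply, Matrix.one_apply]
    exact key r c
  have h2 : phi g⁻¹ = S := by
    have h3 : phi g * phi g⁻¹ = 1 := by rw [← map_mul, mul_inv_cancel, map_one]
    calc phi g⁻¹ = (S * phi g) * phi g⁻¹ := by rw [h1, one_mul]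
      _ = S * (phi g * phi g⁻¹) := Matrix.mul_assoc _ _ _
      _ = S := by rw [h3, mul_one]
  rw [h2]
  rfl

/-- The columns are isotropic. -/
theorem col_iso (g : OO m a b) (c : IF m) : qy (fun r => phi g r c) = 0 := by
  classical
  have h := qy_phi g (Pi.single c 1)
  rw [Matrix.mulVec_single_one] at h
  have e : (fun r => phi g r c) = (phi g).col c := rfl
  rw [e, h]
  rcases c with (i | i) | z
  · simp [qy, Pi.single_apply]
  · simp [qy, Pi.single_apply]
  · fin_cases z <;> simp [qy, Pi.single_apply]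

end Cfsg.Agent.Lib.OmM.Basic
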