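import Cfsg.Agent.Lib.OmM.Rd

/-!
`Ω⁻_{2m+2}` is generated by the upper triangular and the monomial elements: clearing columns.
-/

set_option autoImplicit false
set_option linter.unusedSectionVars false
set_option linter.unusedSimpArgs false

namespace Cfsg.Agent.Lib.OmM.Col

open Matrix QuadraticAlgebra Sum QuadraticMap
open Cfsg.Agent.Lib.Linalg.BinaryAniso Cfsg.Agent.Lib.Classical.Orth.Models
open Cfsg.Agent.Lib.Classical.Orth.Basic Cfsg.Agent.Lib.Classical.Orth.Siegel Cfsg.Agent.Lib.Classical.Orth.Generation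
open Cfsg.Agent.Lib.OmM.Basic Cfsg.Agent.Lib.OmM.Eich Cfsg.Agent.Lib.OmM.Weyl Cfsg.Agent.Lib.OmM.Emb
open Cfsg.Agent.Lib.OmM.Om Cfsg.Agent.Lib.OmM.Last Cfsg.Agent.Lib.OmM.Parity Cfsg.Agent.Lib.OmM.Rd
open Cfsg.Agent.Lib.TwBN.Mat Cfsg.Agent.Lib.TwBN.RootGen

variable {F : Type*} [Field F] [Fintype F] {m : ℕ} {a b : F}
variable [hab : Fact (∀ r : F, r ^ 2 ≠ -b + a * r)]

local notation "ι" => algebraMap F (KK a b)

/-- The column `c` is supported at the row `r₀`. -/
def Pt (g : GG m a b) (r₀ c : IF m) : Prop := ∀ r, r ≠ r₀ → ph g r c = 0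

theorem Pt.mul {u g : GG m a b} {x' x c : IF m} (h1 : Pt u x' x) (h2 : Pt g x c) : Pt (u * g) x' c := by
  intro r hr
  rw [map_mul, Matrix.mul_apply]
  refine Finset.sum_eq_zero fun y _ => ?_
  by_cases hy : y = x
  · subst hy
    rw [h1 r hr, zero_mul]
  · rw [h2 y hy, mul_zero]

theorem Pt.of_mo {w : GG m a b} {q : Equiv.Perm (IF m)} (hw : IsMo ph w q) (x : IF m) : Pt w (q x) x :=
  fun r hr => by
    by_contra h
    exact hr ((hw r x).1 h)

theorem Pt.one (c : IF m) : Pt (1 : GG m a b) c c := fun r hr => by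
  rw [map_one, Matrix.one_apply_ne hr]

theorem Pt.inv {g : GG m a b} {c : IF m} (h : Pt g c c) : Pt g⁻¹ c c :=
  inv_of_finite ({ carrier := {g | Pt g c c}, mul_mem' := fun h1 h2 => Pt.mul h1 h2, one_mem' := Pt.one c } :
    Submonoid (GG m a b)) h

/-- The first columns are trivial. -/
def InFr (j : ℕ) (g : GG m a b) : Prop := ∀ k : Fin m, k.val < j → Pt g (ee k) (ee k) ∧ Pt g (ff k) (ff k)

theorem InFr.mul {j : ℕ} {g h : GG m a b} (hg : InFr j g) (hh : InFr j h) : InFr j (g * h) :=
  fun k hk => ⟨(hg k hk).1.mul (hh k hk).1, (hg k hk).2.mul (hh k hk).2⟩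

theorem InFr.inv {j : ℕ} {g : GG m a b} (hg : InFr j g) : InFr j g⁻¹ :=
  fun k hk => ⟨(hg k hk).1.inv, (hg k hk).2.inv⟩

theorem InFr.of_mo {j : ℕ} {w : GG m a b} {q : Equiv.Perm (IF m)} (hw : IsMo ph w q) (hq : q ∈ QQ m)
    (h : ∀ k : Fin m, k.val < j → q (ee k) = ee k) : InFr j w := by
  intro k hk
  have h1 := Pt.of_mo hw (ee k)
  have h2 := Pt.of_mo hw (ff k)
  rw [h k hk] at h1
  rw [fix_ff hq (h k hk)] at h2
  exact ⟨h1, h2⟩

theorem row_zero {g : GG m a b} {r₀ c : IF m} (h : Pt g (rv r₀) (rv r₀)) (hc : c ≠ r₀) : ph g r₀ c = 0 := by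
  have h1 := ph_inv g⁻¹ r₀ c
  rw [inv_inv] at h1
  rw [h1]
  exact h.inv (rv c) (rv_injective.ne hc)

theorem ne_of_Pt {g : GG m a b} {r c : IF m} (h : Pt g (rv r) (rv c)) : ph g r c ≠ 0 := by
  intro h0
  have h1 : (ph g⁻¹ * ph g) c c = 1 := by
    rw [phi_inv_mul]
    simp
  rw [Matrix.mul_apply, Finset.sum_eq_single r] at h1
  · rw [h0, mul_zero] at h1
    exact zero_ne_one h1
  · intro x _ hx
    rw [ph_inv, h (rv x) (rv_injective.ne hx), zero_mul]
  · simp

theorem isMo_of_zero {g : GG m a b} {π : Equiv.Perm (IF m)} (h : ∀ c r, r ≠ π c → ph g r c = 0) : IsMo ph g π := by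
  intro r c
  constructor
  · intro h0
    by_contra hr
    exact h0 (h c r hr)
  · rintro rfl h0
    have h1 : (ph g⁻¹ * ph g) c c = 1 := by
      rw [phi_inv_mul]
      simp
    rw [Matrix.mul_apply, Finset.sum_eq_single (π c)] at h1
    · rw [h0, mul_zero] at h1
      exact zero_ne_one h1
    · intro x _ hx
      rw [h c x hx, mul_zero]
    · simp

/-- At the top, the elements are monomial. -/
theorem top_mem {g : GG m a b} (hg : InFr m g) : g ∈ Nn ph := by
  have hrow : ∀ (y : Fin m ⊕ Fin m) (c : IF m), c ≠ inl y → ph g (inl y) c = 0 := by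
    rintro (k | k) c hc
    · exact row_zero (hg k k.2).2 hc
    · exact row_zero (hg k k.2).1 hc
  have hcol : ∀ (y : Fin m ⊕ Fin m) (r : IF m), r ≠ inl y → ph g r (inl y) = 0 := by
    rintro (k | k) r hr
    · exact (hg k k.2).1 r hr
    · exact (hg k k.2).2 r hr
  have hAC : ph g uu uu * ph g vv uu = 0 := by
    have h1 := ph_col_iso g uu
    simp only [qy] at h1
    rw [Finset.sum_eq_zero, zero_add] at h1
    · exact h1
    · intro i _
      rw [hrow (inl i) uu (by simp), zero_mul]
  have hD : star (ph g uu uu) = ph g vv vv := ph_star g uu uu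
  have hB : star (ph g vv uu) = ph g uu vv := ph_star g vv uu
  rcases mul_eq_zero.1 hAC with hA | hC
  · have hD0 : ph g vv vv = 0 := by rw [← hD, hA, star_zero]
    refine ⟨tS, isMo_of_zero fun c r hr => ?_⟩
    rcases c with y | z
    · rw [tS_inl] at hr
      exact hcol y r hr
    · rcases r with y | z'
      · exact hrow y _ (by simp)
      · rcases fin2_cases z with rfl | rfl <;> rcases fin2_cases z' with rfl | rfl
        · exact hA
        · exact absurd tS_uu.symm hr
        · exact absurd tS_vv.symm hr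
        · exact hD0
  · have hB0 : ph g uu vv = 0 := by rw [← hB, hC, star_zero]
    refine ⟨1, isMo_of_zero fun c r hr => ?_⟩
    rw [Equiv.Perm.one_apply] at hr
    rcases c with y | z
    · exact hcol y r hr
    · rcases r with y | z'
      · exact hrow y _ (by simp)
      · rcases fin2_cases z with rfl | rfl <;> rcases fin2_cases z' with rfl | rfl
        · exact absurd rfl hr
        · exact hC
        · exact hB0
        · exact absurd rfl hr

/-! ### Rational columns -/

/-- The column of a group element as a rational vector. -/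
def colv (g : GG m a b) (y : Fin m ⊕ Fin m) : IF m → F :=
  fun r => ((g.1 : GL (IF m) F) : Matrix (IF m) (IF m) F) r (inl y)

theorem ph_colv (g : GG m a b) (y : Fin m ⊕ Fin m) (r : IF m) : ph g r (inl y) = hat (colv g y) r :=
  phi_col (g : OO m a b) r y

theorem ph_colv_inl (g : GG m a b) (y x : Fin m ⊕ Fin m) : ph g (inl x) (inl y) = ι (colv g y (inl x)) := by
  rw [ph_colv, hat_inl]

theorem colv_ne {g : GG m a b} {y x : Fin m ⊕ Fin m} : colv g y (inl x) ≠ 0 ↔ ph g (inl x) (inl y) ≠ 0 := by
  rw [ph_colv_inl]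
  exact (map_ne_zero (algebraMap F (KK a b))).symm

theorem colv_act (g : GG m a b) (y : Fin m ⊕ Fin m) :
    colv g y = act (g : OO m a b) (Pi.single (inl y) 1) := by
  funext r
  simp [colv, act, Matrix.mulVec_single_one]

theorem Q_single (y : Fin m ⊕ Fin m) : minusForm m F a b (Pi.single (inl y) 1) = 0 := by
  rcases y with k | k
  · exact Q_sE k
  · exact Q_sF k

theorem Q_colv (g : GG m a b) (y : Fin m ⊕ Fin m) : minusForm m F a b (colv g y) = 0 := by
  rw [colv_act, Q_act, Q_single]

/-- The vector with the coordinates of the `k`-th pair removed. -/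
noncomputable def zr (k : Fin m) (x : IF m → F) : IF m → F := fun r => if r = ee k ∨ r = ff k then 0 else x r

theorem Q_split (k : Fin m) (x : IF m → F) :
    minusForm m F a b x = x (ee k) * x (ff k) + minusForm m F a b (zr k x) := by
  rw [coe_minusForm_apply, coe_minusForm_apply]
  simp only [Cfsg.quadFormMinus]
  have e1 : ∀ z : Fin 2, zr k x (inr z) = x (inr z) := fun z => by simp [zr]
  have e2 : ∀ i : Fin m, zr k x (inl (inl i)) * zr k x (inl (inr i)) =
      if i = k then 0 else x (inl (inl i)) * x (inl (inr i)) := by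
    intro i
    by_cases h : i = k
    · subst h
      simp [zr]
    · simp [zr, h]
  simp only [e1, e2]
  have e3 : ∀ i : Fin m, x (inl (inl i)) * x (inl (inr i)) =
      (if i = k then x (ee k) * x (ff k) else 0) + (if i = k then 0 else x (inl (inl i)) * x (inl (inr i))) := by
    intro i
    by_cases h : i = k
    · subst h
      simp
    · simp [h]
  rw [Finset.sum_congr rfl (fun i _ => e3 i), Finset.sum_add_distrib, Finset.sum_ite_eq']
  simp only [Finset.mem_univ, if_true]
  ring

/-! ### Eichler elements are in `Ω` -/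

theorem eich_mem (j : Fin m) {x : IF m → F} (hx : polar (⇑(minusForm m F a b)) (sE j) x = 0) (hx' : x (ee j) = 0) :
    eichlerIso (Q_sE j) hx ∈ Cfsg.Omega F ⇑(minusForm m F a b) := by
  by_cases hm : 2 ≤ m
  · exact eichler_mem_omega (hnd m a b) (by rw [card_IF]; omega) _ _
  · have hall : ∀ i : Fin m, i = j := fun i => Fin.ext (by have := i.2; have := j.2; omega)
    have hff : x (ff j) = 0 := by rw [← pol_sE (a := a) (b := b) j x]; exact hx
    have hv : x = vE m (⟨x uu, x vv⟩ : KK a b) := by
      funext r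
      rcases r with (k | k) | z
      · rw [hall k, hx', vE_inl']
      · rw [hall k, hff, vE_inl']
      · rcases fin2_cases z with rfl | rfl <;> rfl
    have hb' : polar (⇑(minusForm m F a b)) (sE j) (vE m (⟨x uu, x vv⟩ : KK a b)) = 0 := by
      rw [← hv]
      exact hx
    rw [eichlerIso_congr (Q_sE j) hx (Q_sE j) hb' rfl hv]
    exact plane_mem _ (by rw [pol_sE]; simp) (by rw [pol_sE]; simp) _ _

/-! ### Clearing a column -/

section Clear

variable (j : Fin m)

/-- Clearing the column `y` with the root elements at the level `j`. -/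
theorem clear (h : GG m a b) (y : Fin m ⊕ Fin m)
    (hk : ∀ k : Fin m, k.val < j.val → colv h y (ee k) = 0 ∧ colv h y (ff k) = 0)
    (hc : colv h y (ff j) ≠ 0) :
    ∃ u : GG m a b, IsU ph oo u ∧ InFr j.val u ∧ Pt u (ee j) (ee j) ∧ Pt (u⁻¹ * h) (ff j) (inl y) := by
  have hj := j.2
  set v := colv h y with hv
  set c := v (ff j) with hcd
  set b' : IF m → F := c⁻¹ • zr j v with hb'
  have hb1 : ∀ r, b' r = c⁻¹ * zr j v r := fun r => rfl
  have hb_ff : b' (ff j) = 0 := by simp [hb1, zr]
  have hb_ee : b' (ee j) = 0 := by simp [hb1, zr]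
  have hbk : ∀ k : Fin m, k.val < j.val → b' (ee k) = 0 ∧ b' (ff k) = 0 := by
    intro k hk'
    obtain ⟨h1, h2⟩ := hk k hk'
    constructor
    · rw [hb1]
      simp only [zr]
      split_ifs
      · simp
      · rw [h1, mul_zero]
    · rw [hb1]
      simp only [zr]
      split_ifs
      · simp
      · rw [h2, mul_zero]
  have hpol : polar (⇑(minusForm m F a b)) (sE j) b' = 0 := by
    rw [pol_sE]
    exact hb_ff
  let u : GG m a b := ⟨eichlerIso (Q_sE j) hpol, eich_mem j hpol hb_ee⟩
  have hph : ∀ r c', ph u r c' = (if r = c' then 1 else 0) + hat b' r * (if c' = ff j then 1 else 0)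
      - (if r = ee j then 1 else 0) * hat b' (rv c')
      - ι (minusForm m F a b b') * ((if r = ee j then 1 else 0) * (if c' = ff j then 1 else 0)) :=
    fun r c' => phi_eE hpol r c'
  have hh_ff : hat (a := a) (b := b) b' (ff j) = 0 := by rw [hat_inl, hb_ff, map_zero]
  have hh_ee : hat (a := a) (b := b) b' (ee j) = 0 := by rw [hat_inl, hb_ee, map_zero]
  have hh_k : ∀ k : Fin m, k.val < j.val → hat (a := a) (b := b) b' (ee k) = 0 ∧ hat (a := a) (b := b) b' (ff k) = 0 := by
    intro k hk'
    obtain ⟨h1, h2⟩ := hbk k hk'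
    exact ⟨by rw [hat_inl, h1, map_zero], by rw [hat_inl, h2, map_zero]⟩
  have hej : (ee j : IF m) ≠ ff j := by simp
  refine ⟨u, ⟨fun r c' hrc hle => ?_, fun r => ?_⟩, fun k hk' => ⟨fun r hr => ?_, fun r hr => ?_⟩, fun r hr => ?_, ?_⟩
  · -- off the diagonal
    rw [hph, if_neg hrc, zero_add]
    have t2 : hat (a := a) (b := b) b' r * (if c' = ff j then 1 else 0) = 0 := by
      by_cases h1 : c' = ff j
      · subst h1
        have : hat (a := a) (b := b) b' r = 0 := by
          rcases r with (l | l) | z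
          · have := l.2
            simp at hle
            omega
          · simp at hle
            rcases lt_or_eq_of_le (show l.val ≤ j.val by have := l.2; omega) with h2 | h2
            · exact (hh_k l h2).2
            · have : l = j := Fin.ext h2
              subst this
              exact hh_ff
          · simp at hle
            omega
        rw [this, zero_mul]
      · rw [if_neg h1, mul_zero]
    have t3 : (if r = ee j then 1 else 0) * hat (a := a) (b := b) b' (rv c') = 0 := by
      by_cases h1 : r = ee j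
      · subst h1
        have : hat (a := a) (b := b) b' (rv c') = 0 := by
          rcases c' with (l | l) | z
          · have hne : l ≠ j := by
              rintro rfl
              exact hrc rfl
            have hlj : l.val < j.val := by
              simp at hle
              exact lt_of_le_of_ne hle fun e => hne (Fin.ext e)
            exact (hh_k l hlj).2
          · have := l.2
            simp at hle
            omega
          · simp at hle
            omega
        rw [this, mul_zero]
      · rw [if_neg h1, zero_mul]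
    have t4 : ((if r = ee j then 1 else 0) * (if c' = ff j then 1 else 0) : KK a b) = 0 := by
      by_cases h1 : r = ee j
      · by_cases h2 : c' = ff j
        · subst h1
          subst h2
          simp at hle
          omega
        · rw [if_neg h2, mul_zero]
      · rw [if_neg h1, zero_mul]
    rw [t2, t3, t4]
    ring
  · -- on the diagonal
    rw [hph, if_pos rfl]
    have t2 : hat (a := a) (b := b) b' r * (if r = ff j then 1 else 0) = 0 := by
      by_cases h1 : r = ff j
      · subst h1
        rw [hh_ff, zero_mul]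
      · rw [if_neg h1, mul_zero]
    have t3 : (if r = ee j then 1 else 0) * hat (a := a) (b := b) b' (rv r) = 0 := by
      by_cases h1 : r = ee j
      · subst h1
        rw [show rv (ee j : IF m) = ff j from rfl, hh_ff, mul_zero]
      · rw [if_neg h1, zero_mul]
    have t4 : ((if r = ee j then 1 else 0) * (if r = ff j then 1 else 0) : KK a b) = 0 := by
      by_cases h1 : r = ee j
      · subst h1
        rw [if_neg hej, mul_zero]
      · rw [if_neg h1, zero_mul]
    rw [t2, t3, t4]
    ring
  · -- the column `e_k`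
    have hne : (ee k : IF m) ≠ ff j := by simp
    rw [hph, if_neg hr, if_neg hne, mul_zero, zero_add]
    have : hat (a := a) (b := b) b' (rv (ee k)) = 0 := (hh_k k hk').2
    rw [this]
    simp
  · -- the column `f_k`
    have hne : (ff k : IF m) ≠ ff j := by
      intro e
      have : k = j := by simpa using e
      subst this
      omega
    rw [hph, if_neg hr, if_neg hne, mul_zero, zero_add]
    have : hat (a := a) (b := b) b' (rv (ff k)) = 0 := (hh_k k hk').1
    rw [this]
    simp
  · -- the column `e_j`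
    rw [hph, if_neg hr, if_neg hej]
    simp
  · -- the cleared column
    have hact : act (u : OO m a b) (sF j) = sF j + b' - (minusForm m F a b b') • sE j := by
      show act (eichlerIso (Q_sE j) hpol) (sF j) = _
      rw [act_eichlerIso, pol_sE, sF_ff, if_pos rfl, polar_comm, pol_sF, hb_ee]
      simp
    have hQ : v (ee j) * c + c * c * minusForm m F a b b' = 0 := by
      have h1 : minusForm m F a b v = 0 := Q_colv h y
      rw [Q_split j v] at h1
      have h2 : minusForm m F a b b' = c⁻¹ * c⁻¹ * minusForm m F a b (zr j v) := by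
        rw [hb', QuadraticMap.map_smul]
        simp
      have hc' : c ≠ 0 := hc
      have h3 : c * c * (c⁻¹ * c⁻¹ * minusForm m F a b (zr j v)) = minusForm m F a b (zr j v) := by
        field_simp
      rw [h2, h3]
      exact h1
    have hvv : v = c • act (u : OO m a b) (sF j) := by
      rw [hact]
      funext r
      simp only [Pi.smul_apply, Pi.add_apply, Pi.sub_apply, smul_eq_mul]
      by_cases h1 : r = ee j
      · subst h1
        rw [hb_ee]
        simp only [sF_ee, sE_ee, if_true, add_zero, zero_add, mul_one]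
        have hc' : c ≠ 0 := hc
        apply mul_left_cancel₀ hc'
        linear_combination hQ
      · by_cases h2 : r = ff j
        · subst h2
          rw [hb_ff]
          simp
          exact hcd.symm
        · have e1 : sF j r = (0 : F) := by
            simp [sF, Pi.single_apply, h2]
          have e2 : sE j r = (0 : F) := by
            simp [sE, Pi.single_apply, h1]
          rw [e1, e2, hb1]
          have e3 : zr j v r = v r := by
            simp [zr, h1, h2]
          rw [e3]
          have hc' : c ≠ 0 := hc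
          field_simp
          ring
    have hcol : colv (u⁻¹ * h) y = c • sF j := by
      have e1 : ((u⁻¹ * h : GG m a b) : OO m a b) = (u : OO m a b)⁻¹ * (h : OO m a b) := rfl
      rw [colv_act, e1, act_mul, ← colv_act, ← hv, hvv, act_smul, act_inv_act]
    intro r hr
    rw [ph_colv, hcol, hat_smul, hat_sF, if_neg hr, mul_zero]

end Clear

/-- Some hyperbolic coordinate of a hyperbolic column is nonzero. -/
theorem exists_coord (j : Fin m) (g : GG m a b) (y : Fin m ⊕ Fin m)
    (hk : ∀ k : Fin m, k.val < j.val → colv g y (ee k) = 0 ∧ colv g y (ff k) = 0) :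
    ∃ l : Fin m, j.val ≤ l.val ∧ (colv g y (ee l) ≠ 0 ∨ colv g y (ff l) ≠ 0) := by
  by_contra hcon
  push Not at hcon
  have hall : ∀ l : Fin m, colv g y (ee l) = 0 ∧ colv g y (ff l) = 0 := by
    intro l
    by_cases hl : j.val ≤ l.val
    · exact hcon l hl
    · exact hk l (by omega)
  have h1 := Q_colv g y
  rw [coe_minusForm_apply] at h1
  simp only [Cfsg.quadFormMinus] at h1
  rw [Finset.sum_eq_zero (fun i _ => by rw [(hall i).1, zero_mul]), zero_add] at h1
  obtain ⟨h2, h3⟩ := aniso _ _ h1
  have hz : colv g y = 0 := by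
    funext r
    rcases r with (l | l) | z
    · exact (hall l).1
    · exact (hall l).2
    · rcases fin2_cases z with rfl | rfl
      · exact h2
      · exact h3
  have h4 : act ((g : OO m a b))⁻¹ (colv g y) = Pi.single (inl y) 1 := by
    rw [colv_act, act_inv_act]
  rw [hz, act_zero] at h4
  have h5 := congrFun h4 (inl y)
  simp at h5

/-! ### One step -/

/-- The subgroup generated by the triangular and the monomial elements. -/
noncomputable abbrev BB (m : ℕ) (a b : F) [Fact (∀ r : F, r ^ 2 ≠ -b + a * r)] : Subgroup (GG m a b) :=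
  (Uu ph oo ⊔ Hh ph) ⊔ Nn ph

theorem U_le {u : GG m a b} (hu : IsU ph oo u) : u ∈ BB m a b :=
  Subgroup.mem_sup_left (Subgroup.mem_sup_left hu)

theorem N_le {π : Equiv.Perm (IF m)} {w : GG m a b} (hw : IsMo ph w π) : w ∈ BB m a b :=
  Subgroup.mem_sup_right ⟨π, hw⟩

/-- A first monomial element bringing a nonzero entry to the position `(f_j, f_j)`. -/
theorem move_first (j : Fin m) {g : GG m a b} (hg : InFr j.val g) :
    ∃ w : GG m a b, w ∈ BB m a b ∧ InFr j.val w ∧ ph (w * g) (ff j) (ff j) ≠ 0 := by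
  have hk : ∀ k : Fin m, k.val < j.val → colv g (inr j) (ee k) = 0 ∧ colv g (inr j) (ff k) = 0 := by
    intro k hk'
    have hne : k ≠ j := by
      rintro rfl
      omega
    constructor
    · by_contra h1
      exact colv_ne.1 h1 (row_zero (hg k hk').2 (by simp))
    · by_contra h1
      exact colv_ne.1 h1 (row_zero (hg k hk').1 (by simpa using Ne.symm hne))
  obtain ⟨l, hl, h⟩ := exists_coord j g (inr j) hk
  have hex : ∃ q ∈ QQ m, ∃ i : IF m, q i = ff j ∧ ph g i (ff j) ≠ 0 ∧ ∀ k : Fin m, k.val < j.val → q (ee k) = ee k := by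
    rcases h with h | h
    · obtain ⟨q, hq, h1, h2⟩ := move_ee j l hl
      exact ⟨q, hq, ee l, h1, colv_ne.1 h, h2⟩
    · obtain ⟨q, hq, h1, h2⟩ := move_ff j l hl
      exact ⟨q, hq, ff l, h1, colv_ne.1 h, h2⟩
  obtain ⟨q, hq, i, h1, h2, h3⟩ := hex
  obtain ⟨w, -, hw⟩ := liftQ (a := a) (b := b) hq
  refine ⟨w, N_le hw, InFr.of_mo hw hq h3, ?_⟩
  have e : (q⁻¹ : Equiv.Perm (IF m)) (ff j) = i := by
    rw [Equiv.Perm.inv_eq_iff_eq, h1]
  have h4 := hw.apply_mul (ph g) (ff j) (ff j)
  rw [map_mul, h4, e]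
  have h5 := hw.ne_zero' (ff j)
  rw [e] at h5
  exact mul_ne_zero h5 h2

theorem colv_k (j : Fin m) {h : GG m a b} (hF : InFr j.val h) (y : Fin m ⊕ Fin m)
    (hy : ∀ k : Fin m, k.val < j.val → inl y ≠ (ee k : IF m) ∧ inl y ≠ (ff k : IF m)) :
    ∀ k : Fin m, k.val < j.val → colv h y (ee k) = 0 ∧ colv h y (ff k) = 0 := by
  intro k hk
  constructor
  · by_contra h1
    exact colv_ne.1 h1 (row_zero (hF k hk).2 (hy k hk).1)
  · by_contra h1
    exact colv_ne.1 h1 (row_zero (hF k hk).1 (hy k hk).2)

theorem step (j : Fin m) {g : GG m a b} (hg : InFr j.val g) :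
    ∃ κ ∈ BB m a b, InFr (j.val + 1) (κ * g) := by
  have hlt : ∀ k : Fin m, k.val < j.val → k ≠ j := by
    rintro k hk rfl
    omega
  -- the first move
  obtain ⟨w, hwB, hwF, hne⟩ := move_first j hg
  have hg0 : InFr j.val (w * g) := hwF.mul hg
  obtain ⟨u, huU, huF, huP, h1⟩ := clear j (w * g) (inr j)
    (colv_k j hg0 _ fun k hk => ⟨by simp, by simpa using Ne.symm (hlt k hk)⟩) (colv_ne.2 hne)
  have hg1 : InFr j.val (u⁻¹ * (w * g)) := huF.inv.mul hg0
  have hne1 : ph (u⁻¹ * (w * g)) (ee j) (ee j) ≠ 0 := ne_of_Pt h1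
  -- the flip
  obtain ⟨q, hq, hq1, hq2⟩ := flip j
  have hq3 : q (ff j) = ee j := ((QQ_adm hq).rv (ee j)).trans (by rw [hq1]; rfl)
  have hqi1 : (q⁻¹ : Equiv.Perm (IF m)) (ff j) = ee j := by
    rw [Equiv.Perm.inv_eq_iff_eq, hq1]
  have hqi2 : (q⁻¹ : Equiv.Perm (IF m)) (ee j) = ff j := by
    rw [Equiv.Perm.inv_eq_iff_eq, hq3]
  obtain ⟨w₂, -, hw₂⟩ := liftQ (a := a) (b := b) hq
  have hw₂F : InFr j.val w₂ := InFr.of_mo hw₂ hq hq2
  set g₁ := u⁻¹ * (w * g) with hg₁
  have hg2 : InFr j.val (w₂ * g₁) := hw₂F.mul hg1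
  have hne2 : ph (w₂ * g₁) (ff j) (ee j) ≠ 0 := by
    have h4 := hw₂.apply_mul (ph g₁) (ff j) (ee j)
    rw [map_mul, h4, hqi1]
    have h5 := hw₂.ne_zero' (ff j)
    rw [hqi1] at h5
    exact mul_ne_zero h5 hne1
  have hP2 : Pt (w₂ * g₁) (ee j) (ff j) := by
    have h5 := Pt.of_mo hw₂ (ff j)
    rw [hq3] at h5
    exact h5.mul h1
  obtain ⟨u₂, hu₂U, hu₂F, hu₂P, h2⟩ := clear j (w₂ * g₁) (inl j)
    (colv_k j hg2 _ fun k hk => ⟨by simpa using Ne.symm (hlt k hk), by simp⟩) (colv_ne.2 hne2)
  have hP3 : Pt (u₂⁻¹ * (w₂ * g₁)) (ee j) (ff j) := hu₂P.inv.mul hP2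
  have hg3 : InFr j.val (u₂⁻¹ * (w₂ * g₁)) := hu₂F.inv.mul hg2
  have hw₂i : IsMo ph w₂⁻¹ q⁻¹ := hw₂.inv
  have hg4 : InFr j.val (w₂⁻¹ * (u₂⁻¹ * (w₂ * g₁))) := hw₂F.inv.mul hg3
  have hA : Pt (w₂⁻¹ * (u₂⁻¹ * (w₂ * g₁))) (ee j) (ee j) := by
    have h5 := Pt.of_mo hw₂i (ff j)
    rw [hqi1] at h5
    exact h5.mul h2
  have hB : Pt (w₂⁻¹ * (u₂⁻¹ * (w₂ * g₁))) (ff j) (ff j) := by
    have h5 := Pt.of_mo hw₂i (ee j)
    rw [hqi2] at h5
    exact h5.mul hP3
  refine ⟨w₂⁻¹ * (u₂⁻¹ * (w₂ * (u⁻¹ * w))),
    (BB m a b).mul_mem ((BB m a b).inv_mem (N_le hw₂)) ((BB m a b).mul_mem ((BB m a b).inv_mem (U_le hu₂U))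
      ((BB m a b).mul_mem (N_le hw₂) ((BB m a b).mul_mem ((BB m a b).inv_mem (U_le huU)) hwB))), ?_⟩
  have e : w₂⁻¹ * (u₂⁻¹ * (w₂ * (u⁻¹ * w))) * g = w₂⁻¹ * (u₂⁻¹ * (w₂ * g₁)) := by
    rw [hg₁]
    group
  rw [e]
  intro k hk
  by_cases hk' : k.val < j.val
  · exact hg4 k hk'
  · have : k = j := Fin.ext (by omega)
    subst this
    exact ⟨hA, hB⟩

/-- **Generation.** -/
theorem gen_top : BB m a b = ⊤ := by
  rw [eq_top_iff]
  intro g _
  have key : ∀ (d : ℕ) (g : GG m a b), InFr (m - d) g → g ∈ BB m a b := by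
    intro d
    induction d with
    | zero =>
      intro g hg
      exact Subgroup.mem_sup_right (top_mem hg)
    | succ d ih =>
      intro g hg
      by_cases hd : d < m
      · let j : Fin m := ⟨m - (d + 1), by omega⟩
        obtain ⟨κ, hκ, h1⟩ := step j hg
        have h2 : j.val + 1 = m - d := by
          simp only [j]
          omega
        rw [h2] at h1
        have h3 := ih _ h1
        have e : g = κ⁻¹ * (κ * g) := by group
        rw [e]
        exact Subgroup.mul_mem _ (Subgroup.inv_mem _ hκ) h3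
      · have e : m - (d + 1) = m - d := by omega
        rw [e] at hg
        exact ih g hg
  exact key m g (fun k hk => by simp at hk)

end Cfsg.Agent.Lib.OmM.Col
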