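import Cfsg.Agent.Lib.OmM.Basic

/-!
The rationality of the matrices of `O⁻`, the matrices of the Eichler transformations.
-/

set_option autoImplicit false
set_option linter.unusedSectionVars false
set_option linter.unusedSimpArgs false

namespace Cfsg.Agent.Lib.OmM.Eich

open Matrix QuadraticAlgebra Sum
open Cfsg.Agent.Lib.Linalg.BinaryAniso Cfsg.Agent.Lib.Classical.Orth.Models
open Cfsg.Agent.Lib.Classical.Orth.Basic Cfsg.Agent.Lib.Classical.Orth.Siegel
open Cfsg.Agent.Lib.OmM.Basic

variable {F : Type*} [Field F] [Fintype F] {m : ℕ} {a b : F}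
variable [hab : Fact (∀ r : F, r ^ 2 ≠ -b + a * r)]

local notation "ι" => algebraMap F (KK a b)

theorem star_CC (r w : IF m) : star (CC m a b r w) = CC m a b (sw r) w := by
  rcases r with y | z
  · rw [sw_inl, CC_inl]
    split_ifs <;> simp
  · rcases w with w | w
    · simp [CC]
    · simp only [sw_zz, CC, fromBlocks_apply₂₂]
      fin_cases z <;> fin_cases w <;> simp [C2]

theorem star_dl : star (star (ω : KK a b) - ω) = - (star ω - ω) := by
  rw [star_sub, star_star]
  ring

theorem star_CC' (w c : IF m) : star (CC' m a b w c) = CC' m a b w (sw c) := by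
  rcases c with y | t
  · rw [sw_inl, CC'_inl]
    split_ifs <;> simp
  · rcases w with w | w
    · simp [CC']
    · simp only [sw_zz, CC', fromBlocks_apply₂₂]
      have hd : star (star (ω : KK a b) - ω) = - (star ω - ω) := star_dl
      have hd' : (ω : KK a b) - star ω = -(star ω - ω) := by ring
      fin_cases w <;> fin_cases t <;> simp [C2', hd, div_neg, neg_div] <;> (rw [hd']; first | (rw [div_neg]; try ring) | (rw [inv_neg]; try ring))

/-- The matrices over `K` are rational. -/
theorem phi_star (g : OO m a b) (r c : IF m) : star (phi g r c) = phi g (sw r) (sw c) := by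
  simp only [phi_def, Matrix.mul_apply, star_sum, star_mul', star_CC, star_CC', gK, Matrix.map_apply, star_alg]

/-! ### Eichler transformations -/

local notation "𝔮" => (minusForm m F a b)

/-- The polar vector in the coordinates. -/
theorem hatr (z : IF m → F) :
    (fun w => ι (Cfsg.polarVec (⇑(minusForm m F a b)) z w)) ᵥ* CC' m a b = fun c => hat z (rv c) := by
  funext c
  rw [Matrix.vecMul, dotProduct]
  rcases c with y | t
  · simp only [CC'_inl, mul_ite, mul_one, mul_zero, Finset.sum_ite_eq', Finset.mem_univ, if_true]
    rw [coe_minusForm]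
    unfold Cfsg.polarVec
    rw [QuadraticMap.polar_comm]
    rcases y with i | i
    · rw [polar_minus_single_inl]
      simp
    · rw [polar_minus_single_inr]
      simp
  · simp only [Fintype.sum_sum_type, CC']
    simp only [fromBlocks_apply₁₂, fromBlocks_apply₂₂, Matrix.zero_apply, mul_zero, Finset.sum_const_zero, zero_add]
    rw [Fin.sum_univ_two, coe_minusForm]
    unfold Cfsg.polarVec
    rw [QuadraticMap.polar_comm, QuadraticMap.polar_comm (Cfsg.quadFormMinus m F a b) z (Pi.single (inr 1) 1),
      polar_minus_single_z0, polar_minus_single_z1]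
    have hd := dl_ne (a := a) (b := b)
    have e1 := om_add (a := a) (b := b)
    have e2 := om_mul (a := a) (b := b)
    simp only [map_add, map_mul, map_ofNat, ← e1, ← e2, rv_zz]
    fin_cases t
    · simp only [Fin.zero_eta, sub_zero, hat_v, C2', Matrix.of_apply, Matrix.cons_val', Matrix.cons_val_zero,
        Matrix.cons_val_one, Matrix.cons_val_fin_one]
      field_simp
      ring
    · have e : (1 : Fin 2) - 1 = 0 := rfl
      simp only [Fin.mk_one, e, hat_u, C2', Matrix.of_apply, Matrix.cons_val', Matrix.cons_val_zero,
        Matrix.cons_val_one, Matrix.cons_val_fin_one]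
      field_simp
      ring

/-- The matrix of an Eichler transformation. -/
theorem phi_eichler {z x : IF m → F} (hz : minusForm m F a b z = 0)
    (hb : QuadraticMap.polar (⇑(minusForm m F a b)) z x = 0) (r c : IF m) :
    phi (eichlerIso hz hb) r c = (if r = c then 1 else 0) + hat x r * hat z (rv c)
      - hat z r * hat x (rv c) - ι (minusForm m F a b x) * (hat z r * hat z (rv c)) := by
  have e : gK (eichlerIso hz hb) = 1 + vecMulVec (fun y => ι (x y)) (fun y => ι (Cfsg.polarVec (⇑(minusForm m F a b)) z y))
      - vecMulVec (fun y => ι (z y)) (fun y => ι (Cfsg.polarVec (⇑(minusForm m F a b)) x y))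
      - (ι (minusForm m F a b x)) • vecMulVec (fun y => ι (z y)) (fun y => ι (Cfsg.polarVec (⇑(minusForm m F a b)) z y)) := by
    apply Matrix.ext
    intro r c
    simp only [gK, eichlerIso_coe, eichlerMatrix, Matrix.map_apply, Matrix.sub_apply, Matrix.add_apply,
      Matrix.smul_apply, smul_eq_mul, vecMulVec_apply, map_sub, map_add, map_mul, Matrix.one_apply]
    split_ifs <;> simp
  rw [phi_def, e]
  simp only [Matrix.mul_add, Matrix.add_mul, Matrix.mul_sub, Matrix.sub_mul, Matrix.mul_smul, Matrix.smul_mul,
    Matrix.mul_vecMulVec, Matrix.vecMulVec_mul, Matrix.mul_one, CC_mul, hatr]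
  simp only [Matrix.sub_apply, Matrix.add_apply, Matrix.smul_apply, smul_eq_mul, vecMulVec_apply, Matrix.one_apply]
  rfl

end Cfsg.Agent.Lib.OmM.Eich
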