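import Cfsg.Agent.Lib.TwBN.RootGen

/-!
Block embeddings of small matrices.
-/

set_option autoImplicit false
set_option linter.unusedSectionVars false
set_option linter.unusedSimpArgs false

namespace Cfsg.Agent.Lib.OmM.Emb

open scoped Matrix
open Cfsg.Agent.Lib.TwBN.Mat

variable {L : Type*} [Field L] {I : Type*} [Fintype I] [DecidableEq I] {d : ℕ}

/-- The decomposition of the index set along an injective map. -/
noncomputable def eqv (f : Fin d → I) (hf : Function.Injective f) :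
    Fin d ⊕ {x // ¬ (x ∈ Set.range f)} ≃ I := by
  classical
  exact (Equiv.sumCongr (Equiv.ofInjective f hf) (Equiv.refl _)).trans (Equiv.sumCompl (· ∈ Set.range f))

theorem eqv_inl (f : Fin d → I) (hf : Function.Injective f) (i : Fin d) :
    eqv f hf (Sum.inl i) = f i := by
  simp [eqv]

theorem eqv_inr (f : Fin d → I) (hf : Function.Injective f) (x : {x // ¬ (x ∈ Set.range f)}) :
    eqv f hf (Sum.inr x) = x.1 := by
  simp [eqv]

/-- The block embedding. -/
noncomputable def emb (f : Fin d → I) (hf : Function.Injective f) (z : Matrix (Fin d) (Fin d) L) :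
    Matrix I I L :=
  (Matrix.fromBlocks z 0 0 1).submatrix (eqv f hf).symm (eqv f hf).symm

variable {f : Fin d → I} {hf : Function.Injective f}

theorem emb_ff (z : Matrix (Fin d) (Fin d) L) (i j : Fin d) : emb f hf z (f i) (f j) = z i j := by
  rw [← eqv_inl f hf, ← eqv_inl f hf]
  simp [emb]

theorem emb_fo (z : Matrix (Fin d) (Fin d) L) (i : Fin d) {x : I} (hx : ¬ x ∈ Set.range f) :
    emb f hf z (f i) x = 0 := by
  have e : eqv f hf (Sum.inr ⟨x, hx⟩) = x := eqv_inr f hf ⟨x, hx⟩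
  rw [← eqv_inl f hf, ← e]
  simp [emb]

theorem emb_of (z : Matrix (Fin d) (Fin d) L) (i : Fin d) {x : I} (hx : ¬ x ∈ Set.range f) :
    emb f hf z x (f i) = 0 := by
  have e : eqv f hf (Sum.inr ⟨x, hx⟩) = x := eqv_inr f hf ⟨x, hx⟩
  rw [← eqv_inl f hf, ← e]
  simp [emb]

theorem emb_oo (z : Matrix (Fin d) (Fin d) L) {x y : I} (hx : ¬ x ∈ Set.range f)
    (hy : ¬ y ∈ Set.range f) : emb f hf z x y = if x = y then 1 else 0 := by
  have e : eqv f hf (Sum.inr ⟨x, hx⟩) = x := eqv_inr f hf ⟨x, hx⟩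
  have e' : eqv f hf (Sum.inr ⟨y, hy⟩) = y := eqv_inr f hf ⟨y, hy⟩
  rw [← e, ← e']
  simp only [emb, Matrix.submatrix_apply, Equiv.symm_apply_apply, Matrix.fromBlocks_apply₂₂,
    Matrix.one_apply, EmbeddingLike.apply_eq_iff_eq, Subtype.mk.injEq]
  simp

theorem emb_mul (z z' : Matrix (Fin d) (Fin d) L) :
    emb f hf (z * z') = emb f hf z * emb f hf z' := by
  simp only [emb]
  rw [Matrix.submatrix_mul_equiv, Matrix.fromBlocks_multiply]
  simp

theorem emb_one : emb f hf (1 : Matrix (Fin d) (Fin d) L) = 1 := by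
  simp only [emb, Matrix.fromBlocks_one, Matrix.submatrix_one_equiv]

/-- Characterisation of a block matrix. -/
theorem eq_emb {A : Matrix I I L} {z : Matrix (Fin d) (Fin d) L}
    (h1 : ∀ i j, A (f i) (f j) = z i j)
    (h2 : ∀ i x, ¬ x ∈ Set.range f → A (f i) x = 0)
    (h3 : ∀ i x, ¬ x ∈ Set.range f → A x (f i) = 0)
    (h4 : ∀ x y, ¬ x ∈ Set.range f → ¬ y ∈ Set.range f → A x y = if x = y then 1 else 0) :
    A = emb f hf z := by
  apply Matrix.ext
  intro r c
  by_cases hr : r ∈ Set.range f <;> by_cases hc : c ∈ Set.range f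
  · obtain ⟨i, rfl⟩ := hr
    obtain ⟨j, rfl⟩ := hc
    rw [h1, emb_ff]
  · obtain ⟨i, rfl⟩ := hr
    rw [h2 _ _ hc, emb_fo _ _ hc]
  · obtain ⟨j, rfl⟩ := hc
    rw [h3 _ _ hr, emb_of _ _ hr]
  · rw [h4 _ _ hr hc, emb_oo _ hr hc]

section Group

variable {G : Type*} [Group G] [Finite G] {φ : G →* Matrix I I L}

theorem phi_inv_of_emb {g : G} {z z' : Matrix (Fin d) (Fin d) L} (h : φ g = emb f hf z) (hz : z' * z = 1) :
    φ g⁻¹ = emb f hf z' := by
  calc φ g⁻¹ = (emb f hf z' * φ g) * φ g⁻¹ := by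
        rw [h, ← emb_mul, hz, emb_one, one_mul]
    _ = emb f hf z' * (φ g * φ g⁻¹) := Matrix.mul_assoc _ _ _
    _ = emb f hf z' := by
        rw [← map_mul, mul_inv_cancel, map_one, mul_one]

/-- A monomial element from a block. -/
theorem isMo_emb {g : G} {z : Matrix (Fin d) (Fin d) L} (h : φ g = emb f hf z) {τ : Equiv.Perm I}
    {σ : Equiv.Perm (Fin d)} (hτ : ∀ l, τ (f l) = f (σ l)) (hout : ∀ x, ¬ x ∈ Set.range f → τ x = x)
    (hz : ∀ l l', z l l' ≠ 0 ↔ l = σ l') : IsMo φ g τ := by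
  intro r c
  rw [h]
  by_cases hr : r ∈ Set.range f <;> by_cases hc : c ∈ Set.range f
  · obtain ⟨i, rfl⟩ := hr
    obtain ⟨j, rfl⟩ := hc
    rw [emb_ff, hz, hτ]
    exact ⟨fun e => by rw [e], fun e => hf e⟩
  · obtain ⟨i, rfl⟩ := hr
    rw [emb_fo _ _ hc, hout _ hc]
    simp only [ne_eq, not_true_eq_false, false_iff]
    rintro rfl
    exact hc ⟨i, rfl⟩
  · obtain ⟨j, rfl⟩ := hc
    rw [emb_of _ _ hr, hτ]
    simp only [ne_eq, not_true_eq_false, false_iff]
    rintro rfl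
    exact hr ⟨_, rfl⟩
  · rw [emb_oo _ hr hc, hout _ hc]
    by_cases h3 : r = c
    · subst h3
      simp
    · simp [h3]

/-- A diagonal element from a block. -/
theorem isMo_one_emb {g : G} {z : Matrix (Fin d) (Fin d) L} (h : φ g = emb f hf z)
    (hz : ∀ l l', z l l' ≠ 0 ↔ l = l') : IsMo φ g 1 :=
  isMo_emb (σ := 1) h (fun _ => rfl) (fun _ _ => rfl) hz

end Group

end Cfsg.Agent.Lib.OmM.Emb
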