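import Cfsg.Agent.Lib.OmM.Col

/-!
The `(B,N)`-pair of `Ω⁻_{2m+2}` and the Steinberg character of `PΩ⁻_{2m+2}`.
-/

set_option autoImplicit false
set_option linter.unusedSectionVars false

namespace Cfsg.Agent.Lib.OmM.Final

open Cfsg.Agent.Lib.Linalg.BinaryAniso Cfsg.Agent.Lib.Classical.Orth.Models
open Cfsg.Agent.Lib.OmM.Basic Cfsg.Agent.Lib.OmM.Weyl Cfsg.Agent.Lib.OmM.Om Cfsg.Agent.Lib.OmM.Rd Cfsg.Agent.Lib.OmM.Col
open Cfsg.Agent.Lib.TwBN.Mat Cfsg.Agent.Lib.TwBN.RootGen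

variable {F : Type*} [Field F] [Fintype F] {m : ℕ} {a b : F}
variable [hab : Fact (∀ r : F, r ^ 2 ≠ -b + a * r)]

/-- The `(B,N)`-pair of `Ω⁻_{2m+2}`. -/
noncomputable def bnPair (m : ℕ) (a b : F) [Fact (∀ r : F, r ^ 2 ≠ -b + a * r)] :
    Cfsg.BNPair (GG m a b) :=
  (rd (m := m) (a := a) (b := b)).bn gen_top

/-- The Steinberg character of `PΩ⁻_{2m+2}`. -/
theorem steinberg (p : ℕ) [Fact p.Prime] [CharP F p] :
    ∃ χ : (GG m a b ⧸ Subgroup.center (GG m a b)) → ℂ,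
      Cfsg.IsIrrCharacter (GG m a b ⧸ Subgroup.center (GG m a b)) χ ∧
      ∀ Q : Sylow p (GG m a b ⧸ Subgroup.center (GG m a b)), χ 1 = Nat.card Q ∧
        ∀ x : GG m a b ⧸ Subgroup.center (GG m a b), x ∈ Q → x ≠ 1 → χ x = 0 := by
  haveI : CharP (KK a b) p := charP_of_injective_algebraMap (algebraMap F (KK a b)).injective p
  exact (rd (m := m) (a := a) (b := b)).quot gen_top ph_inj p cover surj

end Cfsg.Agent.Lib.OmM.Final
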