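import Cfsg.Agent.Lib.OmM.Om

/-!
The root elements of the last node of `²D_{m+1}`.
-/

set_option autoImplicit false
set_option linter.unusedSectionVars false
set_option linter.unusedSimpArgs false

namespace Cfsg.Agent.Lib.OmM.Last

open Matrix QuadraticAlgebra Sum QuadraticMap
open Cfsg.Agent.Lib.Linalg.BinaryAniso Cfsg.Agent.Lib.Classical.Orth.Models
open Cfsg.Agent.Lib.Classical.Orth.Basic Cfsg.Agent.Lib.Classical.Orth.Siegel Cfsg.Agent.Lib.Classical.Orth.Generation
open Cfsg.Agent.Lib.OmM.Basic Cfsg.Agent.Lib.OmM.Eich Cfsg.Agent.Lib.OmM.Weyl Cfsg.Agent.Lib.OmM.Emb Cfsg.Agent.Lib.OmM.Om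
open Cfsg.Agent.Lib.TwBN.Mat Cfsg.Agent.Lib.TwBN.RootGen

variable {F : Type*} [Field F] [Fintype F] {m : ℕ} {a b : F}
variable [hab : Fact (∀ r : F, r ^ 2 ≠ -b + a * r)]

local notation "ι" => algebraMap F (KK a b)

theorem vE_inl' (ξ : KK a b) (y : Fin m ⊕ Fin m) : vE m ξ (inl y) = 0 := rfl

theorem vE_zero : vE m (0 : KK a b) = 0 := by
  funext w
  rcases w with w | z
  · rfl
  · rcases fin2_cases z with rfl | rfl <;> rfl

/-- Eichler elements with a vector of the plane lie in `Ω`. -/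
theorem plane_mem {z : IF m → F} (hz : minusForm m F a b z = 0)
    (hz0 : polar (⇑(minusForm m F a b)) z (Pi.single (inr 0) 1) = 0)
    (hz1 : polar (⇑(minusForm m F a b)) z (Pi.single (inr 1) 1) = 0) (ξ : KK a b)
    (hb : polar (⇑(minusForm m F a b)) z (vE m ξ) = 0) :
    eichlerIso hz hb ∈ Cfsg.Omega F ⇑(minusForm m F a b) := by
  by_cases hξ : ξ = 0
  · subst hξ
    have h1 : polar (⇑(minusForm m F a b)) z 0 = 0 := polar_zero_right _ _
    rw [eichlerIso_congr hz hb hz h1 rfl vE_zero]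
    have : eichlerIso hz h1 = 1 := by
      apply Subtype.ext
      apply Units.ext
      exact eichlerMatrix_zero z
    rw [this]
    exact Subgroup.one_mem _
  have hQ : minusForm m F a b (vE m ξ) ≠ 0 := by
    rw [Q_vE]
    exact fun h => hξ (QuadraticAlgebra.norm_eq_zero_iff_eq_zero.1 h)
  have hp0 : polar (⇑(minusForm m F a b)) (vE m ξ) (Pi.single (inr 0) 1) = 2 * ξ.re + a * ξ.im := by
    rw [polar_comm, coe_minusForm, polar_minus_single_z0]
    rfl
  have hp1 : polar (⇑(minusForm m F a b)) (vE m ξ) (Pi.single (inr 1) 1) = a * ξ.re + 2 * b * ξ.im := by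
    rw [polar_comm, coe_minusForm, polar_minus_single_z1]
    rfl
  by_cases h0 : 2 * ξ.re + a * ξ.im = 0
  · by_cases h1 : a * ξ.re + 2 * b * ξ.im = 0
    · exfalso
      obtain ⟨h2, h3⟩ := binary_nondegenerate a b aniso _ _ h0 h1
      exact hξ (QuadraticAlgebra.ext h2 h3)
    · exact eichler_mem_of_refl hz hb hQ hz1 (by rw [hp1]; exact h1)
  · exact eichler_mem_of_refl hz hb hQ hz0 (by rw [hp0]; exact h0)

theorem pol_xL (p : Fin m) (ξ : KK a b) : polar (⇑(minusForm m F a b)) (sE p) (vE m ξ) = 0 := by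
  rw [pol_sE]
  rfl

theorem pol_yL (p : Fin m) (ξ : KK a b) : polar (⇑(minusForm m F a b)) (sF p) (vE m ξ) = 0 := by
  rw [pol_sF]
  rfl

/-- The root element of the last node. -/
noncomputable def xL (p : Fin m) (ξ : KK a b) : GG m a b :=
  ⟨eichlerIso (Q_sE p) (pol_xL p ξ), plane_mem _ (by rw [pol_sE]; simp) (by rw [pol_sE]; simp) _ _⟩

/-- The opposite root element of the last node. -/
noncomputable def yL (p : Fin m) (ξ : KK a b) : GG m a b :=
  ⟨eichlerIso (Q_sF p) (pol_yL p ξ), plane_mem _ (by rw [pol_sF]; simp) (by rw [pol_sF]; simp) _ _⟩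

theorem iota_norm (ξ : KK a b) : ι (minusForm m F a b (vE m ξ)) = ξ * star ξ := by
  rw [Q_vE, algebraMap_norm_eq_mul_star]

theorem ph_xL (p : Fin m) (ξ : KK a b) (r c : IF m) :
    ph (xL p ξ) r c = (if r = c then 1 else 0) + hat (vE m ξ) r * (if c = ff p then 1 else 0)
      - (if r = ee p then 1 else 0) * hat (vE m ξ) (rv c)
      - (ξ * star ξ) * ((if r = ee p then 1 else 0) * (if c = ff p then 1 else 0)) := by
  rw [ph_apply]
  show phi (eichlerIso (Q_sE p) (pol_xL p ξ)) r c = _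
  rw [phi_eE, iota_norm]

theorem ph_yL (p : Fin m) (ξ : KK a b) (r c : IF m) :
    ph (yL p ξ) r c = (if r = c then 1 else 0) + hat (vE m ξ) r * (if c = ee p then 1 else 0)
      - (if r = ff p then 1 else 0) * hat (vE m ξ) (rv c)
      - (ξ * star ξ) * ((if r = ff p then 1 else 0) * (if c = ee p then 1 else 0)) := by
  rw [ph_apply]
  show phi (eichlerIso (Q_sF p) (pol_yL p ξ)) r c = _
  rw [phi_eF, iota_norm]

/-- The block of the last root. -/
def fL (p : Fin m) : Fin 4 → IF m := ![ee p, uu, vv, ff p]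

theorem fL_inj (p : Fin m) : Function.Injective (fL p) := by
  intro l l' h
  fin_cases l <;> fin_cases l' <;> simp_all [fL]

theorem fL_out {p : Fin m} {x : IF m} (hx : ¬ x ∈ Set.range (fL p)) :
    x ≠ ee p ∧ x ≠ uu ∧ x ≠ vv ∧ x ≠ ff p :=
  ⟨fun e => hx ⟨0, e.symm⟩, fun e => hx ⟨1, e.symm⟩, fun e => hx ⟨2, e.symm⟩, fun e => hx ⟨3, e.symm⟩⟩

theorem rv_fL_out {p : Fin m} {x : IF m} (hx : ¬ x ∈ Set.range (fL p)) : ¬ rv x ∈ Set.range (fL p) := by
  rintro ⟨l, hl⟩
  apply hx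
  have e : x = rv (fL p l) := by rw [hl, rv_rv]
  fin_cases l
  · exact ⟨3, e.symm⟩
  · exact ⟨2, e.symm⟩
  · exact ⟨1, e.symm⟩
  · exact ⟨0, e.symm⟩

theorem hat_out {p : Fin m} (ξ : KK a b) {x : IF m} (hx : ¬ x ∈ Set.range (fL p)) :
    hat (a := a) (b := b) (vE m ξ) x = 0 := by
  obtain ⟨h0, h1, h2, h3⟩ := fL_out hx
  rcases x with x | z
  · exact hat_vE_inl ξ x
  · rcases fin2_cases z with rfl | rfl
    · exact absurd rfl h1
    · exact absurd rfl h2

/-- The root element in the block. -/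
def xl (s t : KK a b) : Matrix (Fin 4) (Fin 4) (KK a b) := !![1,-t,-s,-(s*t); 0,1,0,s; 0,0,1,t; 0,0,0,1]
/-- The opposite root element in the block. -/
def yl (s t : KK a b) : Matrix (Fin 4) (Fin 4) (KK a b) := !![1,0,0,0; s,1,0,0; t,0,1,0; -(s*t),-t,-s,1]
/-- The reflection in the block. -/
def el : Matrix (Fin 4) (Fin 4) (KK a b) := !![0,0,0,-1; 0,0,-1,0; 0,-1,0,0; -1,0,0,0]
/-- The torus element in the block. -/
noncomputable def hl (s t : KK a b) : Matrix (Fin 4) (Fin 4) (KK a b) :=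
  !![s*t,0,0,0; 0,s/t,0,0; 0,0,t/s,0; 0,0,0,(s*t)⁻¹]

theorem ph_xL_emb (p : Fin m) (ξ : KK a b) :
    ph (xL p ξ) = emb (fL p) (fL_inj p) (xl ξ (star ξ)) := by
  apply eq_emb
  · intro l l'
    rw [ph_xL]
    fin_cases l <;> fin_cases l' <;> simp [fL, xl, hat_vE_inl, hat_vE_u, hat_vE_v, vE_inl']
  · intro l x hx
    obtain ⟨h0, h1, h2, h3⟩ := fL_out hx
    have hr := hat_out ξ (rv_fL_out hx)
    rw [ph_xL, if_neg h3]
    fin_cases l <;> simp [fL, Ne.symm h0, Ne.symm h1, Ne.symm h2, Ne.symm h3, hat_vE_inl, hr]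
  · intro l x hx
    obtain ⟨h0, h1, h2, h3⟩ := fL_out hx
    have hr := hat_out ξ hx
    rw [ph_xL, if_neg h0]
    fin_cases l <;> simp [fL, h0, h1, h2, h3, hr, hat_vE_inl]
  · intro x y hx hy
    obtain ⟨h0, h1, h2, h3⟩ := fL_out hx
    obtain ⟨h0', h1', h2', h3'⟩ := fL_out hy
    rw [ph_xL, if_neg h0, if_neg h3']
    simp

theorem ph_yL_emb (p : Fin m) (ξ : KK a b) :
    ph (yL p ξ) = emb (fL p) (fL_inj p) (yl ξ (star ξ)) := by
  apply eq_emb
  · intro l l'
    rw [ph_yL]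
    fin_cases l <;> fin_cases l' <;> simp [fL, yl, hat_vE_inl, hat_vE_u, hat_vE_v, vE_inl']
  · intro l x hx
    obtain ⟨h0, h1, h2, h3⟩ := fL_out hx
    have hr := hat_out ξ (rv_fL_out hx)
    rw [ph_yL, if_neg h0]
    fin_cases l <;> simp [fL, Ne.symm h0, Ne.symm h1, Ne.symm h2, Ne.symm h3, hat_vE_inl, hr]
  · intro l x hx
    obtain ⟨h0, h1, h2, h3⟩ := fL_out hx
    have hr := hat_out ξ hx
    rw [ph_yL, if_neg h3]
    fin_cases l <;> simp [fL, h0, h1, h2, h3, hr, hat_vE_inl]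
  · intro x y hx hy
    obtain ⟨h0, h1, h2, h3⟩ := fL_out hx
    obtain ⟨h0', h1', h2', h3'⟩ := fL_out hy
    rw [ph_yL, if_neg h3, if_neg h0']
    simp

theorem el_eq : xl (a := a) (b := b) 1 1 * yl 1 1 * xl 1 1 = el := by
  apply Matrix.ext
  intro i j
  fin_cases i <;> fin_cases j <;> simp [xl, yl, el, Matrix.mul_apply, Fin.sum_univ_four]

theorem el_sq : el (a := a) (b := b) * el = 1 := by
  apply Matrix.ext
  intro i j
  fin_cases i <;> fin_cases j <;> simp [el, Matrix.mul_apply, Fin.sum_univ_four]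

theorem hl_s1 (s t : KK a b) : el * xl s t * el = yl t s := by
  apply Matrix.ext
  intro i j
  fin_cases i <;> fin_cases j <;> simp [xl, yl, el, Matrix.mul_apply, Fin.sum_univ_four, mul_comm]

/-- An intermediate product. -/
noncomputable def hlA (s t : KK a b) : Matrix (Fin 4) (Fin 4) (KK a b) :=
  !![1,-t,-s,-(s*t); t⁻¹,0,-(s/t),0; s⁻¹,-(t/s),0,0; -(s*t)⁻¹,0,0,0]

/-- An intermediate product. -/
noncomputable def hlB (s t : KK a b) : Matrix (Fin 4) (Fin 4) (KK a b) :=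
  !![s*t,s,t,-1; 0,s/t,0,-t⁻¹; 0,0,t/s,-s⁻¹; 0,0,0,(s*t)⁻¹]

theorem hl_s2 {s t : KK a b} (hs : s ≠ 0) (ht : t ≠ 0) : yl t⁻¹ s⁻¹ * xl s t = hlA s t := by
  apply Matrix.ext
  intro i j
  fin_cases i <;> fin_cases j <;> simp [xl, yl, hlA, Matrix.mul_apply, Fin.sum_univ_four, hs, ht] <;>
    field_simp <;> ring

theorem hl_s3 (s t : KK a b) : hlA s t * el = hlB s t := by
  apply Matrix.ext
  intro i j
  fin_cases i <;> fin_cases j <;> simp [hlA, hlB, el, Matrix.mul_apply, Fin.sum_univ_four]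

theorem hl_s4 {s t : KK a b} (hs : s ≠ 0) (ht : t ≠ 0) : hlB s t * xl s⁻¹ t⁻¹ = hl s t := by
  apply Matrix.ext
  intro i j
  fin_cases i <;> fin_cases j <;> simp [xl, hl, hlB, Matrix.mul_apply, Fin.sum_univ_four, hs, ht] <;>
    field_simp <;> ring

theorem hl_eq {s t : KK a b} (hs : s ≠ 0) (ht : t ≠ 0) :
    el * xl s⁻¹ t⁻¹ * el * xl s t * el * xl s⁻¹ t⁻¹ = hl s t := by
  rw [hl_s1, hl_s2 hs ht, hl_s3, hl_s4 hs ht]

/-- The reflection of the last node. -/
noncomputable def eL (p : Fin m) : GG m a b := xL p 1 * yL p 1 * xL p 1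

theorem ph_eL (p : Fin m) : ph (eL (a := a) (b := b) p) = emb (fL p) (fL_inj p) el := by
  rw [eL, map_mul, map_mul, ph_xL_emb, ph_yL_emb, ← emb_mul, ← emb_mul, star_one, el_eq]

/-- The permutation of the block of the last root. -/
def sL : Equiv.Perm (Fin 4) := Equiv.swap 0 3 * Equiv.swap 1 2
theorem sL_0 : sL 0 = 3 := by decide
theorem sL_1 : sL 1 = 2 := by decide
theorem sL_2 : sL 2 = 1 := by decide
theorem sL_3 : sL 3 = 0 := by decide

theorem isMo_eL (p : Fin m) : IsMo ph (eL (a := a) (b := b) p) (tL p) := by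
  refine isMo_emb (ph_eL p) (σ := sL) ?_ ?_ ?_
  · intro l
    fin_cases l
    · simp only [Fin.zero_eta, sL_0]
      show tL p (ee p) = ff p
      rw [tL_ee, if_pos rfl]
    · simp only [Fin.mk_one, sL_1]
      show tL p (inr 0) = vv
      rw [tL_zz]
      rfl
    · simp only [Fin.reduceFinMk, sL_2]
      show tL p (inr 1) = uu
      rw [tL_zz]
      rfl
    · simp only [Fin.reduceFinMk, sL_3]
      show tL p (ff p) = ee p
      rw [tL_ff, if_pos rfl]
  · intro x hx
    obtain ⟨h0, h1, h2, h3⟩ := fL_out hx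
    simp only [tL, Equiv.Perm.mul_apply]
    rw [Equiv.swap_apply_of_ne_of_ne h1 h2, Equiv.swap_apply_of_ne_of_ne h0 h3]
  · intro l l'
    fin_cases l <;> fin_cases l' <;> simp [el, sL_0, sL_1, sL_2, sL_3]

section NodeL

variable {p : Fin m} (hp : p.val + 1 = m)

include hp

theorem xL_mem_Xs (ξ : KK a b) : xL p ξ ∈ Xs ph oo (tL p) := by
  have hi := p.2
  have hin : ∀ y : IF m, hat (a := a) (b := b) (vE m ξ) y ≠ 0 → ∃ z, y = inr z := by
    intro y hy
    rcases y with y | z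
    · exact absurd (hat_vE_inl ξ y) hy
    · exact ⟨z, rfl⟩
  refine ⟨⟨fun r c hrc h => ?_, fun r => ?_⟩, fun r c hrc hn => ?_⟩
  · rw [ph_xL, if_neg hrc, zero_add]
    have e1 : hat (a := a) (b := b) (vE m ξ) r * (if c = ff p then 1 else 0) = 0 := by
      by_cases h1 : c = ff p
      · subst h1
        by_cases h2 : hat (a := a) (b := b) (vE m ξ) r = 0
        · rw [h2, zero_mul]
        · obtain ⟨z, rfl⟩ := hin r h2
          simp at h
          omega
      · rw [if_neg h1, mul_zero]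
    have e2 : (if r = ee p then 1 else 0) * hat (a := a) (b := b) (vE m ξ) (rv c) = 0 := by
      by_cases h1 : r = ee p
      · subst h1
        by_cases h2 : hat (a := a) (b := b) (vE m ξ) (rv c) = 0
        · rw [h2, mul_zero]
        · obtain ⟨z, hz⟩ := hin _ h2
          have h3 : rv c = inr z := hz
          have h4 : oo (rv c) = m := by rw [h3]; rfl
          rw [oo_rv] at h4
          simp at h
          have := oo_le c
          omega
      · rw [if_neg h1, zero_mul]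
    have e3 : ((if r = ee p then 1 else 0) * (if c = ff p then 1 else 0) : KK a b) = 0 := by
      by_cases h1 : r = ee p
      · by_cases h2 : c = ff p
        · subst h1
          subst h2
          simp at h
          omega
        · rw [if_neg h2, mul_zero]
      · rw [if_neg h1, zero_mul]
    rw [e1, e2, e3]
    ring
  · rw [ph_xL, if_pos rfl]
    have e1 : hat (a := a) (b := b) (vE m ξ) r * (if r = ff p then 1 else 0) = 0 := by
      by_cases h1 : r = ff p
      · subst h1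
        rw [hat_vE_inl, zero_mul]
      · rw [if_neg h1, mul_zero]
    have e2 : (if r = ee p then 1 else 0) * hat (a := a) (b := b) (vE m ξ) (rv r) = 0 := by
      by_cases h1 : r = ee p
      · subst h1
        rw [rv_ee, hat_vE_inl, mul_zero]
      · rw [if_neg h1, zero_mul]
    have e3 : ((if r = ee p then 1 else 0) * (if r = ff p then 1 else 0) : KK a b) = 0 := by
      by_cases h1 : r = ee p
      · subst h1
        simp
      · rw [if_neg h1, zero_mul]
    rw [e1, e2, e3]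
    ring
  · rw [ph_xL, if_neg hrc, zero_add]
    have e1 : hat (a := a) (b := b) (vE m ξ) r * (if c = ff p then 1 else 0) = 0 := by
      by_cases h1 : c = ff p
      · subst h1
        by_cases h2 : hat (a := a) (b := b) (vE m ξ) r = 0
        · rw [h2, zero_mul]
        · obtain ⟨z, rfl⟩ := hin r h2
          exact absurd (inv_tL_zp hp z) hn
      · rw [if_neg h1, mul_zero]
    have e2 : (if r = ee p then 1 else 0) * hat (a := a) (b := b) (vE m ξ) (rv c) = 0 := by
      by_cases h1 : r = ee p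
      · subst h1
        by_cases h2 : hat (a := a) (b := b) (vE m ξ) (rv c) = 0
        · rw [h2, mul_zero]
        · obtain ⟨z, hz⟩ := hin _ h2
          have h3 : c = inr (1 - z) := by
            rw [← rv_rv c, hz, rv_zz]
          subst h3
          exact absurd (inv_tL_pz hp _) hn
      · rw [if_neg h1, zero_mul]
    have e3 : ((if r = ee p then 1 else 0) * (if c = ff p then 1 else 0) : KK a b) = 0 := by
      by_cases h1 : r = ee p
      · by_cases h2 : c = ff p
        · subst h1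
          subst h2
          exact absurd (inv_tL_pp hp) hn
        · rw [if_neg h2, mul_zero]
      · rw [if_neg h1, zero_mul]
    rw [e1, e2, e3]
    ring

omit hp in
theorem ph_xL_pv (ξ : KK a b) : ph (xL p ξ) (ee p) vv = -ξ := by
  rw [ph_xL_emb]
  have e1 : (ee p : IF m) = fL p 0 := rfl
  have e2 : (vv : IF m) = fL p 2 := rfl
  rw [e1, e2, emb_ff]
  simp [xl]

omit hp in
theorem ph_xL_pu (ξ : KK a b) : ph (xL p ξ) (ee p) uu = - star ξ := by
  rw [ph_xL_emb]
  have e1 : (ee p : IF m) = fL p 0 := rfl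
  have e2 : (uu : IF m) = fL p 1 := rfl
  rw [e1, e2, emb_ff]
  simp [xl]

theorem dec_L' {u : GG m a b} (hu : IsU ph oo u) : ∃ ξ : KK a b, u * (xL p ξ)⁻¹ ∈ Ys ph oo (tL p) := by
  have hi := p.2
  refine ⟨- ph u (ee p) vv, ?_⟩
  set ξ : KK a b := - ph u (ee p) vv with hξ
  have hx := xL_mem_Xs hp ξ
  have hxU : IsU ph oo (xL p ξ) := hx.1
  have hxi : IsU ph oo (xL p ξ)⁻¹ := (Uu ph oo).inv_mem hxU
  have hA : IsU ph oo (u * (xL p ξ)⁻¹) := hu.mul hxi
  have hoo : ∀ z : Fin 2, oo (inr z : IF m) = oo (ee p : IF m) + 1 := by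
    intro z
    simp [hp]
  have hv0 : ph (u * (xL p ξ)⁻¹) (ee p) vv = 0 := by
    rw [consec_mul hu hxi (hoo 1), inv_consec hxU (hoo 1), ph_xL_pv, hξ]
    ring
  have hu0 : ph (u * (xL p ξ)⁻¹) (ee p) uu = 0 := by
    have h1 : star (ph u (ee p) vv) = ph u (ee p) uu := ph_star u _ _
    rw [consec_mul hu hxi (hoo 0), inv_consec hxU (hoo 0), ph_xL_pu, hξ, star_neg, h1]
    ring
  have hz0 : ∀ z : Fin 2, ph (u * (xL p ξ)⁻¹) (ee p) (inr z) = 0 := by
    intro z
    rcases fin2_cases z with rfl | rfl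
    · exact hu0
    · exact hv0
  have hzf : ∀ z : Fin 2, ph (u * (xL p ξ)⁻¹) (inr z) (ff p) = 0 := by
    intro z
    have h1 := link hA (hoo (1 - z))
    rw [hz0, neg_zero] at h1
    have e : rv (inr (1 - z) : IF m) = inr z := by
      rw [rv_zz, one_sub_one_sub]
    rw [e] at h1
    exact h1
  have hpp : ph (u * (xL p ξ)⁻¹) (ee p) (ff p) = 0 := by
    have h1 := ph_col_iso (u * (xL p ξ)⁻¹) (ff p)
    simp only [qy] at h1
    rw [Finset.sum_eq_single p] at h1
    · have h2 := hzf 0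
      rw [h2, zero_mul, add_zero, hA.2, mul_one] at h1
      exact h1
    · intro i _ hne
      have h3 : ph (u * (xL p ξ)⁻¹) (ff i) (ff p) = 0 := by
        apply hA.1
        · intro e
          apply hne
          have := Sum.inr.inj (Sum.inl.inj e)
          exact this
        · have := i.2
          simp
          omega
      rw [h3, mul_zero]
    · simp
  refine ⟨hA, fun r c hinv => ?_⟩
  rcases inv_tL hp hinv with ⟨rfl, rfl | rfl | rfl⟩ | ⟨rfl | rfl, rfl⟩
  · exact hu0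
  · exact hv0
  · exact hpp
  · exact hzf 0
  · exact hzf 1

theorem dec_L {u : GG m a b} (hu : IsU ph oo u) :
    ∃ a' ∈ Ys ph oo (tL p), ∃ x ∈ Xs ph oo (tL p), u = a' * x := by
  obtain ⟨c, hc⟩ := dec_L' hp hu
  exact ⟨_, hc, _, xL_mem_Xs hp c, by group⟩

theorem eq_xL {x : GG m a b} (hx : x ∈ Xs ph oo (tL p)) : ∃ c : KK a b, x = xL p c := by
  obtain ⟨c, hc⟩ := dec_L' hp hx.1
  refine ⟨c, ?_⟩
  have h1 : x * (xL p c)⁻¹ ∈ Xs ph oo (tL p) :=
    (Xs ph oo (tL p)).mul_mem hx ((Xs ph oo (tL p)).inv_mem (xL_mem_Xs hp c))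
  have h2 := Xs_Ys h1 hc
  rwa [mul_inv_eq_one] at h2

omit hp in
theorem xL_zero : xL (a := a) (b := b) p 0 = 1 := by
  apply ph_inj
  rw [ph_xL_emb, map_one, ← emb_one (f := fL p) (hf := fL_inj p)]
  congr 1
  apply Matrix.ext
  intro l l'
  fin_cases l <;> fin_cases l' <;> simp [xl]

theorem sl2_L {x : GG m a b} (hx : x ∈ Xs ph oo (tL p)) :
    eL p * x * (eL p)⁻¹ = 1 ∨
      ∃ x₁ ∈ Xs ph oo (tL p), ∃ h, IsMo ph h 1 ∧ ∃ x₂ ∈ Xs ph oo (tL p),
        eL p * x * (eL p)⁻¹ = x₁ * eL p * h * x₂ := by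
  obtain ⟨c, rfl⟩ := eq_xL hp hx
  by_cases hc : c = 0
  · subst hc
    left
    rw [xL_zero]
    group
  right
  set e := eL (a := a) (b := b) p with he
  set y := xL p c⁻¹ with hy
  set x := xL p c with hxd
  refine ⟨y⁻¹, (Xs ph oo (tL p)).inv_mem (xL_mem_Xs hp c⁻¹), e⁻¹ * y * (e * x * e⁻¹) * y, ?_,
    y⁻¹, (Xs ph oo (tL p)).inv_mem (xL_mem_Xs hp c⁻¹), by group⟩
  have hc' : star c ≠ 0 := star_ne_zero.2 hc
  have h1 : ph (e⁻¹ * y * (e * x * e⁻¹) * y) = emb (fL p) (fL_inj p) (hl c (star c)) := by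
    have e1 : ph e = emb (fL p) (fL_inj p) el := ph_eL p
    have e3 : ph e⁻¹ = emb (fL p) (fL_inj p) el := phi_inv_of_emb e1 el_sq
    simp only [map_mul]
    rw [e1, e3, ph_xL_emb p c⁻¹, ph_xL_emb p c, star_inv₀]
    simp only [← emb_mul]
    rw [← hl_eq hc hc']
    simp only [Matrix.mul_assoc]
  refine isMo_one_emb h1 ?_
  have h3 : c⁻¹ ≠ 0 := inv_ne_zero hc
  intro l l'
  fin_cases l <;> fin_cases l' <;> simp [hl, hc, hc']

theorem ne_L : ∃ x ∈ Xs ph oo (tL p), ∃ r c, IsInv oo (tL p) r c ∧ ph (a := a) (b := b) x r c ≠ 0 := by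
  refine ⟨xL p 1, xL_mem_Xs hp 1, ee p, vv, inv_tL_pz hp 1, ?_⟩
  rw [ph_xL_pv]
  exact neg_ne_zero.2 one_ne_zero

end NodeL

end Cfsg.Agent.Lib.OmM.Last
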