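import Cfsg.Agent.Lib.OmM.Basic

/-!
The simple reflections of `²D_{m+1}` on the index set: combinatorics.
-/

set_option autoImplicit false
set_option linter.unusedSectionVars false
set_option linter.unusedSimpArgs false

namespace Cfsg.Agent.Lib.OmM.Weyl

open Sum
open Cfsg.Agent.Lib.TwBN.RootGen Cfsg.Agent.Lib.OmM.Basic

variable {m : ℕ}

/-- The basis vectors `e_i`. -/
abbrev ee (i : Fin m) : IF m := inl (inl i)
/-- The basis vectors `f_i`. -/
abbrev ff (i : Fin m) : IF m := inl (inr i)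
/-- The vector `u`. -/
abbrev uu : IF m := inr 0
/-- The vector `v`. -/
abbrev vv : IF m := inr 1

/-- The reflection of a short simple root. -/
def tA (i j : Fin m) : Equiv.Perm (IF m) := Equiv.swap (ee i) (ee j) * Equiv.swap (ff i) (ff j)

/-- The reflection of the last simple root. -/
def tL (p : Fin m) : Equiv.Perm (IF m) := Equiv.swap (ee p) (ff p) * Equiv.swap uu vv

/-- The swap of `u` and `v`. -/
def tS : Equiv.Perm (IF m) := Equiv.swap uu vv

/-- All simple reflections. -/
def tt (j : Fin m) : Equiv.Perm (IF m) :=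
  if h : j.val + 1 < m then tA j ⟨j.val + 1, h⟩ else tL j

theorem tt_A (j : Fin m) (h : j.val + 1 < m) : tt j = tA j ⟨j.val + 1, h⟩ := dif_pos h
theorem tt_L (j : Fin m) (h : ¬ j.val + 1 < m) : tt j = tL j := dif_neg h

theorem tA_ee (i j k : Fin m) : tA i j (ee k) = if k.val = i.val then ee j else if k.val = j.val then ee i else ee k := by
  simp only [tA, Equiv.Perm.mul_apply, Equiv.swap_apply_def, Fin.val_inj, Sum.inl.injEq, Sum.inr.injEq, reduceCtorEq, if_false]
  try (split_ifs <;> simp_all)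

theorem tA_ff (i j k : Fin m) : tA i j (ff k) = if k.val = i.val then ff j else if k.val = j.val then ff i else ff k := by
  simp only [tA, Equiv.Perm.mul_apply, Equiv.swap_apply_def, Fin.val_inj, Sum.inl.injEq, Sum.inr.injEq, reduceCtorEq, if_false]
  try (split_ifs <;> simp_all)

theorem tA_zz (i j : Fin m) (z : Fin 2) : tA i j (inr z) = inr z := by
  simp [tA, Equiv.swap_apply_def]

theorem tL_ee (p k : Fin m) : tL p (ee k) = if k.val = p.val then ff p else ee k := by
  simp only [tL, Equiv.Perm.mul_apply, Equiv.swap_apply_def, Fin.val_inj, Sum.inl.injEq, Sum.inr.injEq, reduceCtorEq, if_false]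
  try (split_ifs <;> simp_all)

theorem tL_ff (p k : Fin m) : tL p (ff k) = if k.val = p.val then ee p else ff k := by
  simp only [tL, Equiv.Perm.mul_apply, Equiv.swap_apply_def, Fin.val_inj, Sum.inl.injEq, Sum.inr.injEq, reduceCtorEq, if_false]
  try (split_ifs <;> simp_all)

theorem tL_zz (p : Fin m) (z : Fin 2) : tL p (inr z) = inr (1 - z) := by
  fin_cases z <;> simp [tL, Equiv.swap_apply_def]

theorem oo_tA_ee (i j k : Fin m) : oo (tA i j (ee k)) =
    if k.val = i.val then j.val else if k.val = j.val then i.val else k.val := by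
  rw [tA_ee]
  split_ifs <;> simp

theorem oo_tA_ff (i j k : Fin m) : oo (tA i j (ff k)) =
    if k.val = i.val then 2 * m - j.val else if k.val = j.val then 2 * m - i.val else 2 * m - k.val := by
  rw [tA_ff]
  split_ifs <;> simp

theorem oo_tA_zz (i j : Fin m) (z : Fin 2) : oo (tA i j (inr z)) = m := by
  rw [tA_zz]
  simp

theorem oo_tL_ee (p k : Fin m) : oo (tL p (ee k)) = if k.val = p.val then 2 * m - p.val else k.val := by
  rw [tL_ee]
  split_ifs <;> simp

theorem oo_tL_ff (p k : Fin m) : oo (tL p (ff k)) = if k.val = p.val then p.val else 2 * m - k.val := by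
  rw [tL_ff]
  split_ifs <;> simp

theorem oo_tL_zz (p : Fin m) (z : Fin 2) : oo (tL p (inr z)) = m := by
  rw [tL_zz]
  simp

theorem tA_sq (i j : Fin m) : tA i j * tA i j = 1 := by
  by_cases hij : i = j
  · subst hij
    simp only [tA, Equiv.swap_self]
    rfl
  have hne : j.val ≠ i.val := fun e => hij (Fin.ext e.symm)
  ext x
  rw [Equiv.Perm.mul_apply, Equiv.Perm.one_apply]
  rcases x with (k | k) | z
  · show tA i j (tA i j (ee k)) = ee k
    rw [tA_ee]
    split_ifs with h1 h2
    · rw [tA_ee, if_neg hne, if_pos rfl]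
      exact congrArg (fun t => (ee t : IF m)) (Fin.ext h1.symm)
    · rw [tA_ee, if_pos rfl]
      exact congrArg (fun t => (ee t : IF m)) (Fin.ext h2.symm)
    · rw [tA_ee, if_neg h1, if_neg h2]
  · show tA i j (tA i j (ff k)) = ff k
    rw [tA_ff]
    split_ifs with h1 h2
    · rw [tA_ff, if_neg hne, if_pos rfl]
      exact congrArg (fun t => (ff t : IF m)) (Fin.ext h1.symm)
    · rw [tA_ff, if_pos rfl]
      exact congrArg (fun t => (ff t : IF m)) (Fin.ext h2.symm)
    · rw [tA_ff, if_neg h1, if_neg h2]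
  · rw [tA_zz, tA_zz]

theorem tL_sq (p : Fin m) : tL p * tL p = 1 := by
  ext x
  rw [Equiv.Perm.mul_apply, Equiv.Perm.one_apply]
  rcases x with (k | k) | z
  · show tL p (tL p (ee k)) = ee k
    rw [tL_ee]
    split_ifs with h1
    · rw [tL_ff, if_pos rfl]
      exact congrArg (fun t => (ee t : IF m)) (Fin.ext h1.symm)
    · rw [tL_ee, if_neg h1]
  · show tL p (tL p (ff k)) = ff k
    rw [tL_ff]
    split_ifs with h1
    · rw [tL_ee, if_pos rfl]
      exact congrArg (fun t => (ff t : IF m)) (Fin.ext h1.symm)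
    · rw [tL_ff, if_neg h1]
  · rw [tL_zz, tL_zz, one_sub_one_sub]

theorem tt_sq (j : Fin m) : tt j * tt j = 1 := by
  by_cases h : j.val + 1 < m
  · rw [tt_A j h]
    exact tA_sq _ _
  · rw [tt_L j h]
    exact tL_sq _

theorem tA_rv (i j : Fin m) (x : IF m) : tA i j (rv x) = rv (tA i j x) := by
  rcases x with (k | k) | z
  · show tA i j (ff k) = rv (tA i j (ee k))
    rw [tA_ff, tA_ee]
    split_ifs <;> rfl
  · show tA i j (ee k) = rv (tA i j (ff k))
    rw [tA_ff, tA_ee]
    split_ifs <;> rfl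
  · rw [rv_zz, tA_zz, tA_zz, rv_zz]

theorem tL_rv (p : Fin m) (x : IF m) : tL p (rv x) = rv (tL p x) := by
  rcases x with (k | k) | z
  · show tL p (ff k) = rv (tL p (ee k))
    rw [tL_ff, tL_ee]
    split_ifs <;> rfl
  · show tL p (ee k) = rv (tL p (ff k))
    rw [tL_ff, tL_ee]
    split_ifs <;> rfl
  · rw [rv_zz, tL_zz, tL_zz, rv_zz]

theorem tA_sw (i j : Fin m) (x : IF m) : tA i j (sw x) = sw (tA i j x) := by
  rcases x with (k | k) | z
  · show tA i j (ee k) = sw (tA i j (ee k))
    rw [tA_ee]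
    split_ifs <;> rfl
  · show tA i j (ff k) = sw (tA i j (ff k))
    rw [tA_ff]
    split_ifs <;> rfl
  · rw [sw_zz, tA_zz, tA_zz, sw_zz]

theorem tL_sw (p : Fin m) (x : IF m) : tL p (sw x) = sw (tL p x) := by
  rcases x with (k | k) | z
  · show tL p (ee k) = sw (tL p (ee k))
    rw [tL_ee]
    split_ifs <;> rfl
  · show tL p (ff k) = sw (tL p (ff k))
    rw [tL_ff]
    split_ifs <;> rfl
  · rw [sw_zz, tL_zz, tL_zz, sw_zz]

theorem tt_rv (j : Fin m) (x : IF m) : tt j (rv x) = rv (tt j x) := by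
  by_cases h : j.val + 1 < m
  · rw [tt_A j h]
    exact tA_rv _ _ _
  · rw [tt_L j h]
    exact tL_rv _ _

theorem tt_sw (j : Fin m) (x : IF m) : tt j (sw x) = sw (tt j x) := by
  by_cases h : j.val + 1 < m
  · rw [tt_A j h]
    exact tA_sw _ _ _
  · rw [tt_L j h]
    exact tL_sw _ _

theorem tt_inj : Function.Injective (tt (m := m)) := by
  have key : ∀ j : Fin m, ∀ j' : Fin m, tt j = tt j' → j.val ≤ j'.val → j = j' := by
    intro j j' h hle
    by_contra hne
    have hlt : j.val < j'.val := lt_of_le_of_ne hle (fun e => hne (Fin.ext e))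
    have hj := j'.2
    have h1 := congrArg (fun τ : Equiv.Perm (IF m) => τ (ee j)) h
    rw [tt_A j (by omega), tA_ee, if_pos rfl] at h1
    by_cases h2 : j'.val + 1 < m
    · rw [tt_A j' h2, tA_ee, if_neg (by omega), if_neg (by simp; omega)] at h1
      have := congrArg oo h1
      simp at this
    · rw [tt_L j' h2, tL_ee, if_neg (by omega)] at h1
      have := congrArg oo h1
      simp at this
  intro j j' h
  rcases le_total j.val j'.val with h1 | h1
  · exact key j j' h h1
  · exact (key j' j h.symm h1).symm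

/-! ### Inversions -/

theorem inv_tA {i j : Fin m} (hij : j.val = i.val + 1) {r c : IF m} (h : IsInv oo (tA i j) r c) :
    (r = ee i ∧ c = ee j) ∨ (r = ff j ∧ c = ff i) := by
  obtain ⟨h1, h2⟩ := h
  have hi := i.2
  have hj := j.2
  rcases r with (k | k) | z <;> rcases c with (l | l) | w
  · have hk := k.2
    have hl := l.2
    change oo (tA i j (ee l)) < oo (tA i j (ee k)) at h2
    simp only [oo_ee, oo_tA_ee] at h1 h2
    simp only [Sum.inl.injEq, reduceCtorEq, false_and, or_false, and_false, Fin.ext_iff]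
    split_ifs at h2 <;> omega
  · have hk := k.2
    have hl := l.2
    change oo (tA i j (ff l)) < oo (tA i j (ee k)) at h2
    simp only [oo_ee, oo_ff, oo_tA_ee, oo_tA_ff] at h1 h2
    split_ifs at h2 <;> omega
  · have hk := k.2
    change oo (tA i j (inr w)) < oo (tA i j (ee k)) at h2
    simp only [oo_tA_zz, oo_tA_ee] at h2
    split_ifs at h2 <;> omega
  · have hk := k.2
    have hl := l.2
    change oo (tA i j (ee l)) < oo (tA i j (ff k)) at h2
    simp only [oo_ee, oo_ff] at h1
    simp only [oo_tA_ee, oo_tA_ff] at h2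
    split_ifs at h2 <;> omega
  · have hk := k.2
    have hl := l.2
    change oo (tA i j (ff l)) < oo (tA i j (ff k)) at h2
    simp only [oo_ff] at h1
    simp only [oo_tA_ff] at h2
    simp only [Sum.inl.injEq, Sum.inr.injEq, reduceCtorEq, false_and, false_or, or_false, and_false, Fin.ext_iff]
    split_ifs at h2 <;> omega
  · have hk := k.2
    change oo (tA i j (inr w)) < oo (tA i j (ff k)) at h2
    simp only [oo_tA_zz, oo_tA_ff] at h2
    simp only [oo_ff, oo_zz] at h1
    omega
  · have hl := l.2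
    change oo (tA i j (ee l)) < oo (tA i j (inr z)) at h2
    simp only [oo_tA_zz, oo_tA_ee] at h2
    simp only [oo_ee, oo_zz] at h1
    omega
  · have hl := l.2
    change oo (tA i j (ff l)) < oo (tA i j (inr z)) at h2
    simp only [oo_tA_zz, oo_tA_ff] at h2
    split_ifs at h2 <;> omega
  · simp only [oo_zz] at h1
    omega

theorem inv_tL {p : Fin m} (hp : p.val + 1 = m) {r c : IF m} (h : IsInv oo (tL p) r c) :
    (r = ee p ∧ (c = uu ∨ c = vv ∨ c = ff p)) ∨ ((r = uu ∨ r = vv) ∧ c = ff p) := by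
  obtain ⟨h1, h2⟩ := h
  have hi := p.2
  rcases r with (k | k) | z <;> rcases c with (l | l) | w
  · have hk := k.2
    have hl := l.2
    change oo (tL p (ee l)) < oo (tL p (ee k)) at h2
    simp only [oo_ee, oo_tL_ee] at h1 h2
    split_ifs at h2 <;> omega
  · have hk := k.2
    have hl := l.2
    change oo (tL p (ff l)) < oo (tL p (ee k)) at h2
    simp only [oo_ee, oo_ff, oo_tL_ee, oo_tL_ff] at h1 h2
    simp only [Sum.inl.injEq, Sum.inr.injEq, reduceCtorEq, false_and, false_or, or_false, and_false, Fin.ext_iff, true_and, and_true]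
    split_ifs at h2 <;> omega
  · have hk := k.2
    change oo (tL p (inr w)) < oo (tL p (ee k)) at h2
    simp only [oo_tL_zz, oo_tL_ee] at h2
    simp only [oo_ee, oo_zz] at h1
    have hw : inr w = (uu : IF m) ∨ inr w = (vv : IF m) := by
      have : w = 0 ∨ w = 1 := by
        revert w
        decide
      rcases this with rfl | rfl
      · exact Or.inl rfl
      · exact Or.inr rfl
    left
    refine ⟨?_, ?_⟩
    · have : k.val = p.val := by
        split_ifs at h2 <;> omega
      exact congrArg (fun t => (ee t : IF m)) (Fin.ext this)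
    · rcases hw with hw | hw
      · exact Or.inl hw
      · exact Or.inr (Or.inl hw)
  · have hk := k.2
    have hl := l.2
    change oo (tL p (ee l)) < oo (tL p (ff k)) at h2
    simp only [oo_ee, oo_ff] at h1
    simp only [oo_tL_ee, oo_tL_ff] at h2
    split_ifs at h2 <;> omega
  · have hk := k.2
    have hl := l.2
    change oo (tL p (ff l)) < oo (tL p (ff k)) at h2
    simp only [oo_ff] at h1
    simp only [oo_tL_ff] at h2
    split_ifs at h2 <;> omega
  · have hk := k.2
    change oo (tL p (inr w)) < oo (tL p (ff k)) at h2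
    simp only [oo_tL_zz, oo_tL_ff] at h2
    simp only [oo_ff, oo_zz] at h1
    split_ifs at h2 <;> omega
  · have hl := l.2
    change oo (tL p (ee l)) < oo (tL p (inr z)) at h2
    simp only [oo_tL_zz, oo_tL_ee] at h2
    simp only [oo_ee, oo_zz] at h1
    split_ifs at h2 <;> omega
  · have hl := l.2
    change oo (tL p (ff l)) < oo (tL p (inr z)) at h2
    simp only [oo_tL_zz, oo_tL_ff] at h2
    simp only [oo_ff, oo_zz] at h1
    have hz : inr z = (uu : IF m) ∨ inr z = (vv : IF m) := by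
      have : z = 0 ∨ z = 1 := by
        revert z
        decide
      rcases this with rfl | rfl
      · exact Or.inl rfl
      · exact Or.inr rfl
    right
    refine ⟨hz, ?_⟩
    have : l.val = p.val := by
      split_ifs at h2 <;> omega
    exact congrArg (fun t => (ff t : IF m)) (Fin.ext this)
  · simp only [oo_zz] at h1
    omega

theorem inv_tA_ab {i j : Fin m} (hij : j.val = i.val + 1) : IsInv oo (tA i j) (ee i) (ee j) := by
  refine ⟨by simp <;> omega, ?_⟩
  rw [oo_tA_ee, oo_tA_ee, if_pos rfl, if_neg (by omega), if_pos rfl]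
  omega

theorem inv_tA_ab' {i j : Fin m} (hij : j.val = i.val + 1) : IsInv oo (tA i j) (ff j) (ff i) := by
  have hi := i.2
  have hj := j.2
  refine ⟨by simp <;> omega, ?_⟩
  rw [oo_tA_ff, oo_tA_ff, if_pos rfl, if_neg (by omega), if_pos rfl]
  omega

theorem inv_tL_pz {p : Fin m} (hp : p.val + 1 = m) (z : Fin 2) : IsInv oo (tL p) (ee p) (inr z) := by
  have hi := p.2
  refine ⟨by simp <;> omega, ?_⟩
  rw [oo_tL_zz, oo_tL_ee, if_pos rfl]
  omega

theorem inv_tL_zp {p : Fin m} (hp : p.val + 1 = m) (z : Fin 2) : IsInv oo (tL p) (inr z) (ff p) := by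
  have hi := p.2
  refine ⟨by simp <;> omega, ?_⟩
  rw [oo_tL_zz, oo_tL_ff, if_pos rfl]
  omega

theorem inv_tL_pp {p : Fin m} (hp : p.val + 1 = m) : IsInv oo (tL p) (ee p) (ff p) := by
  have hi := p.2
  refine ⟨by simp <;> omega, ?_⟩
  rw [oo_tL_ff, oo_tL_ee, if_pos rfl, if_pos rfl]
  omega

/-- The levels and the opposition. -/
theorem cover (r c : IF m) (h : oo c = oo r + 1) : ∃ j : Fin m, IsInv oo (tt j) r c := by
  rcases r with (k | k) | z <;> rcases c with (l | l) | w
  · have hk := k.2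
    have hl := l.2
    simp only [oo_ee] at h
    have hk1 : k.val + 1 < m := by omega
    refine ⟨k, ?_⟩
    rw [tt_A k hk1]
    have : l = ⟨k.val + 1, hk1⟩ := Fin.ext h
    subst this
    exact inv_tA_ab rfl
  · have hk := k.2
    have hl := l.2
    simp only [oo_ee, oo_ff] at h
    omega
  · have hk := k.2
    simp only [oo_ee, oo_zz] at h
    refine ⟨k, ?_⟩
    rw [tt_L k (by omega)]
    exact inv_tL_pz (by omega) w
  · have hk := k.2
    have hl := l.2
    simp only [oo_ee, oo_ff] at h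
    omega
  · have hk := k.2
    have hl := l.2
    simp only [oo_ff] at h
    have hl1 : l.val + 1 < m := by omega
    refine ⟨l, ?_⟩
    rw [tt_A l hl1]
    have : k = ⟨l.val + 1, hl1⟩ := Fin.ext (by simp; omega)
    subst this
    exact inv_tA_ab' rfl
  · have hk := k.2
    simp only [oo_ff, oo_zz] at h
    omega
  · have hl := l.2
    simp only [oo_ee, oo_zz] at h
    omega
  · have hl := l.2
    simp only [oo_ff, oo_zz] at h
    refine ⟨l, ?_⟩
    rw [tt_L l (by omega)]
    exact inv_tL_zp (by omega) z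
  · simp only [oo_zz] at h
    omega

theorem surj (i : IF m) (k : ℕ) (hk : k < oo i) : ∃ l : IF m, oo l = k := by
  have := oo_le i
  by_cases h1 : k < m
  · exact ⟨ee ⟨k, h1⟩, rfl⟩
  by_cases h2 : k = m
  · exact ⟨uu, h2.symm⟩
  · exact ⟨ff ⟨2 * m - k, by omega⟩, by simp; omega⟩

/-! ### Permutations commuting with the opposition and the Frobenius -/

theorem fin2_ne : ∀ z : Fin 2, 1 - z ≠ z := by decide
theorem fin2_cases : ∀ z : Fin 2, z = 0 ∨ z = 1 := by decide

/-- The admissible permutations. -/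
structure Adm (π : Equiv.Perm (IF m)) : Prop where
  rv : ∀ x, π (rv x) = Basic.rv (π x)
  sw : ∀ x, π (sw x) = Basic.sw (π x)

theorem Adm.inv {π : Equiv.Perm (IF m)} (h : Adm π) : Adm π⁻¹ := by
  refine ⟨fun x => ?_, fun x => ?_⟩
  · have h1 := h.rv ((π⁻¹ : Equiv.Perm (IF m)) x)
    have e : π ((π⁻¹ : Equiv.Perm (IF m)) x) = x := π.apply_symm_apply x
    rw [e] at h1
    rw [Equiv.Perm.inv_eq_iff_eq, h1]
  · have h1 := h.sw ((π⁻¹ : Equiv.Perm (IF m)) x)
    have e : π ((π⁻¹ : Equiv.Perm (IF m)) x) = x := π.apply_symm_apply x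
    rw [e] at h1
    rw [Equiv.Perm.inv_eq_iff_eq, h1]

theorem Adm.mul {π π' : Equiv.Perm (IF m)} (h : Adm π) (h' : Adm π') : Adm (π * π') :=
  ⟨fun x => by rw [Equiv.Perm.mul_apply, h'.rv, h.rv, Equiv.Perm.mul_apply],
   fun x => by rw [Equiv.Perm.mul_apply, h'.sw, h.sw, Equiv.Perm.mul_apply]⟩

theorem Adm.zz {π : Equiv.Perm (IF m)} (h : Adm π) (z : Fin 2) : ∃ z', π (inr z) = inr z' := by
  rcases hx : π (inr z) with x | z'
  · exfalso
    have h1 := h.sw (inr z)
    rw [hx, sw_inl, sw_zz] at h1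
    have h2 := π.injective (h1.trans hx.symm)
    exact fin2_ne z (Sum.inr.inj h2)
  · exact ⟨z', rfl⟩

theorem Adm.of_zz {π : Equiv.Perm (IF m)} (h : Adm π) {x : IF m} {z : Fin 2} (hx : π x = inr z) :
    ∃ z', x = inr z' := by
  obtain ⟨z', hz'⟩ := h.inv.zz z
  refine ⟨z', ?_⟩
  have e : (π⁻¹ : Equiv.Perm (IF m)) (π x) = x := π.symm_apply_apply x
  rw [← e, hx, hz']

theorem Adm.oo_zz {π : Equiv.Perm (IF m)} (h : Adm π) (z : Fin 2) : oo (π (inr z)) = m := by
  obtain ⟨z', hz'⟩ := h.zz z
  rw [hz']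
  rfl

theorem Adm.oo_ne {π : Equiv.Perm (IF m)} (h : Adm π) (x : Fin m ⊕ Fin m) : oo (π (inl x)) ≠ m := by
  intro e
  rcases hx : π (inl x) with (k | k) | z
  · rw [hx] at e
    have := k.2
    simp at e
    omega
  · rw [hx] at e
    have := k.2
    simp at e
    omega
  · obtain ⟨z', hz'⟩ := h.of_zz hx
    simp at hz'

theorem oo_eq_iff {r c : IF m} (h : oo r = oo c) : r = c ∨ (∃ z z' : Fin 2, r = inr z ∧ c = inr z') := by
  rcases r with (k | k) | z <;> rcases c with (l | l) | w
  · left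
    have : k = l := Fin.ext h
    rw [this]
  · exfalso
    have := k.2
    have := l.2
    simp at h
    omega
  · exfalso
    have := k.2
    simp at h
    omega
  · exfalso
    have := k.2
    have := l.2
    simp at h
    omega
  · left
    have h1 := k.2
    have h2 := l.2
    simp at h
    have : k = l := Fin.ext (by omega)
    rw [this]
  · exfalso
    have := k.2
    simp at h
    omega
  · exfalso
    have := l.2
    simp at h
    omega
  · exfalso
    have := l.2
    simp at h
    omega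
  · right
    exact ⟨z, w, rfl, rfl⟩

theorem Adm.lev {π : Equiv.Perm (IF m)} (h : Adm π) (r c : IF m) (e : oo r = oo c) : oo (π r) = oo (π c) := by
  rcases oo_eq_iff e with rfl | ⟨z, z', rfl, rfl⟩
  · rfl
  · rw [h.oo_zz, h.oo_zz]

theorem Adm.oo_rv {π : Equiv.Perm (IF m)} (h : Adm π) (x : IF m) : oo (π (Basic.rv x)) = 2 * m - oo (π x) := by
  rw [h.rv, Basic.oo_rv]

theorem tt_adm (j : Fin m) : Adm (tt j) := ⟨tt_rv j, tt_sw j⟩

theorem dich {π : Equiv.Perm (IF m)} (h : Adm π) (j : Fin m) :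
    (∀ r c, IsInv oo (tt j) r c → oo (π r) < oo (π c)) ∨ (∀ r c, IsInv oo (tt j) r c → oo (π c) < oo (π r)) := by
  by_cases hj : j.val + 1 < m
  · rw [tt_A j hj]
    set j₁ : Fin m := ⟨j.val + 1, hj⟩ with hj₁
    have hne : oo (π (ee j)) ≠ oo (π (ee j₁)) := by
      intro e
      have h1 := oo_eq_iff e
      rcases h1 with h1 | ⟨z, z', h1, h2⟩
      · have h2 := π.injective h1
        have h3 : j = j₁ := by simpa using h2
        have h4 := congrArg Fin.val h3
        simp [hj₁] at h4
      · obtain ⟨z'', hz⟩ := h.of_zz h1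
        simp at hz
    have hv1 : ∀ x, oo (π (Basic.rv x)) = 2 * m - oo (π x) := h.oo_rv
    have b1 := oo_le (π (ee j))
    have b2 := oo_le (π (ee j₁))
    have e1 : oo (π (ff j)) = 2 * m - oo (π (ee j)) := hv1 (ee j)
    have e2 : oo (π (ff j₁)) = 2 * m - oo (π (ee j₁)) := hv1 (ee j₁)
    rcases lt_or_gt_of_ne hne with hlt | hlt
    · left
      intro r c hinv
      rcases inv_tA rfl hinv with ⟨rfl, rfl⟩ | ⟨rfl, rfl⟩
      · exact hlt
      · omega
    · right
      intro r c hinv
      rcases inv_tA rfl hinv with ⟨rfl, rfl⟩ | ⟨rfl, rfl⟩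
      · exact hlt
      · omega
  · rw [tt_L j hj]
    have hp : j.val + 1 = m := by
      have := j.2
      omega
    have hne : oo (π (ee j)) ≠ m := h.oo_ne (inl j)
    have hv1 : ∀ x, oo (π (Basic.rv x)) = 2 * m - oo (π x) := h.oo_rv
    have b1 := oo_le (π (ee j))
    have e1 : oo (π (ff j)) = 2 * m - oo (π (ee j)) := hv1 (ee j)
    have e2 : oo (π uu) = m := h.oo_zz 0
    have e3 : oo (π vv) = m := h.oo_zz 1
    rcases lt_or_gt_of_ne hne with hlt | hlt
    · left
      intro r c hinv
      rcases inv_tL hp hinv with ⟨rfl, rfl | rfl | rfl⟩ | ⟨rfl | rfl, rfl⟩ <;> omega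
    · right
      intro r c hinv
      rcases inv_tL hp hinv with ⟨rfl, rfl | rfl | rfl⟩ | ⟨rfl | rfl, rfl⟩ <;> omega

/-! ### Generation -/

/-- The group generated by the simple reflections. -/
abbrev QQ (m : ℕ) : Subgroup (Equiv.Perm (IF m)) := Subgroup.closure (Set.range (tt (m := m)))

theorem QQ_adm {q : Equiv.Perm (IF m)} (hq : q ∈ QQ m) : Adm q := by
  induction hq using Subgroup.closure_induction with
  | mem y hy =>
    obtain ⟨j, rfl⟩ := hy
    exact tt_adm j
  | one => exact ⟨fun _ => rfl, fun _ => rfl⟩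
  | mul a b _ _ ha hb => exact ha.mul hb
  | inv a _ ha => exact ha.inv

theorem M1 (d : ℕ) : ∀ (i : ℕ) (hl : i + d < m), ∃ q ∈ QQ m,
    q (ee ⟨i + d, hl⟩) = ee ⟨i, by omega⟩ ∧ ∀ k : Fin m, k.val < i → q (ee k) = ee k := by
  induction d with
  | zero =>
    intro i hl
    exact ⟨1, Subgroup.one_mem _, rfl, fun _ _ => rfl⟩
  | succ d ih =>
    intro i hl
    obtain ⟨q, hq, h1, h2⟩ := ih i (by omega)
    let i₀ : Fin m := ⟨i + d, by omega⟩
    have ht : tt i₀ = tA i₀ ⟨i + d + 1, by omega⟩ := tt_A i₀ (by simp [i₀]; omega)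
    refine ⟨q * tt i₀, Subgroup.mul_mem _ hq (Subgroup.subset_closure ⟨i₀, rfl⟩), ?_, fun k hk => ?_⟩
    · rw [Equiv.Perm.mul_apply, ht, tA_ee, if_neg (by simp [i₀]), if_pos (by simp <;> omega)]
      exact h1
    · rw [Equiv.Perm.mul_apply, ht, tA_ee, if_neg (by simp [i₀]; omega), if_neg (by simp; omega)]
      exact h2 k hk

/-- Flipping the `j`-th pair. -/
theorem flip (j : Fin m) : ∃ q ∈ QQ m, q (ee j) = ff j ∧ ∀ k : Fin m, k.val < j.val → q (ee k) = ee k := by
  have hj := j.2
  have hl : j.val + (m - 1 - j.val) < m := by omega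
  obtain ⟨q, hq, h1, h2⟩ := M1 (m := m) (m - 1 - j.val) j.val hl
  set p : Fin m := ⟨j.val + (m - 1 - j.val), hl⟩ with hp
  have hpv : ¬ p.val + 1 < m := by
    simp only [hp]
    omega
  refine ⟨q * (tt p * q⁻¹), Subgroup.mul_mem _ hq (Subgroup.mul_mem _ (Subgroup.subset_closure ⟨p, rfl⟩)
    (Subgroup.inv_mem _ hq)), ?_, fun k hk => ?_⟩
  · have e1 : (q⁻¹ : Equiv.Perm (IF m)) (ee j) = ee p := by
      rw [Equiv.Perm.inv_eq_iff_eq, h1]
    simp only [Equiv.Perm.mul_apply]
    rw [e1, tt_L p hpv, tL_ee, if_pos rfl]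
    have h3 := (QQ_adm hq).rv (ee p)
    rw [h1] at h3
    exact h3
  · have e1 : (q⁻¹ : Equiv.Perm (IF m)) (ee k) = ee k := by
      rw [Equiv.Perm.inv_eq_iff_eq, h2 k hk]
    simp only [Equiv.Perm.mul_apply]
    rw [e1, tt_L p hpv, tL_ee, if_neg (by simp only [hp]; omega), h2 k hk]

theorem fix_ff {q : Equiv.Perm (IF m)} (hq : q ∈ QQ m) {k : Fin m} (h : q (ee k) = ee k) : q (ff k) = ff k :=
  ((QQ_adm hq).rv (ee k)).trans (by rw [h]; rfl)

/-- Moving a hyperbolic index to `f_j`. -/
theorem move_ff (j l : Fin m) (h : j.val ≤ l.val) : ∃ q ∈ QQ m, q (ff l) = ff j ∧ ∀ k : Fin m, k.val < j.val → q (ee k) = ee k := by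
  have hl := l.2
  have e : j.val + (l.val - j.val) = l.val := by omega
  obtain ⟨q, hq, h1, h2⟩ := M1 (m := m) (l.val - j.val) j.val (by omega)
  refine ⟨q, hq, ?_, h2⟩
  have e1 : (⟨j.val + (l.val - j.val), by omega⟩ : Fin m) = l := Fin.ext e
  rw [e1] at h1
  have h3 := (QQ_adm hq).rv (ee l)
  rw [h1] at h3
  exact h3

theorem move_ee (j l : Fin m) (h : j.val ≤ l.val) : ∃ q ∈ QQ m, q (ee l) = ff j ∧ ∀ k : Fin m, k.val < j.val → q (ee k) = ee k := by
  have hl := l.2
  have e : j.val + (l.val - j.val) = l.val := by omega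
  obtain ⟨q, hq, h1, h2⟩ := M1 (m := m) (l.val - j.val) j.val (by omega)
  obtain ⟨q', hq', h3, h4⟩ := flip j
  refine ⟨q' * q, Subgroup.mul_mem _ hq' hq, ?_, fun k hk => ?_⟩
  · have e1 : (⟨j.val + (l.val - j.val), by omega⟩ : Fin m) = l := Fin.ext e
    rw [e1] at h1
    rw [Equiv.Perm.mul_apply, h1]
    exact h3
  · rw [Equiv.Perm.mul_apply, h2 k hk, h4 k hk]

/-- A move to `e_j` (used for the Weyl group). -/
theorem to_ee (j : Fin m) (x : IF m) (hx : (∃ l : Fin m, j.val ≤ l.val ∧ x = ee l) ∨ (∃ l : Fin m, j.val ≤ l.val ∧ x = ff l)) :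
    ∃ q ∈ QQ m, q x = ee j ∧ ∀ k : Fin m, k.val < j.val → q (ee k) = ee k := by
  obtain ⟨q', hq', h3, h4⟩ := flip j
  have hff : q' (ff j) = ee j := by
    have h5 := (QQ_adm hq').rv (ee j)
    rw [h3] at h5
    exact h5
  rcases hx with ⟨l, hl, rfl⟩ | ⟨l, hl, rfl⟩
  · obtain ⟨q, hq, h1, h2⟩ := move_ee j l hl
    exact ⟨q' * q, Subgroup.mul_mem _ hq' hq, by rw [Equiv.Perm.mul_apply, h1, hff],
      fun k hk => by rw [Equiv.Perm.mul_apply, h2 k hk, h4 k hk]⟩
  · obtain ⟨q, hq, h1, h2⟩ := move_ff j l hl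
    exact ⟨q' * q, Subgroup.mul_mem _ hq' hq, by rw [Equiv.Perm.mul_apply, h1, hff],
      fun k hk => by rw [Equiv.Perm.mul_apply, h2 k hk, h4 k hk]⟩

theorem sort_step {π : Equiv.Perm (IF m)} (hπ : Adm π) (i : ℕ) (hi : i ≤ m) :
    ∃ q ∈ QQ m, ∀ k : Fin m, k.val < i → (q * π) (ee k) = ee k := by
  induction i with
  | zero => exact ⟨1, Subgroup.one_mem _, fun k hk => absurd hk (Nat.not_lt_zero _)⟩
  | succ i ih =>
    obtain ⟨q, hq, h⟩ := ih (by omega)
    have hA : Adm (q * π) := (QQ_adm hq).mul hπ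
    let i' : Fin m := ⟨i, by omega⟩
    have hx : (∃ l : Fin m, i'.val ≤ l.val ∧ (q * π) (ee i') = ee l) ∨
        (∃ l : Fin m, i'.val ≤ l.val ∧ (q * π) (ee i') = ff l) := by
      rcases hy : (q * π) (ee i') with (l | l) | z
      · left
        refine ⟨l, ?_, rfl⟩
        by_contra hlt
        have h1 := h l (by simp only [i'] at hlt; omega)
        have h2 := (q * π).injective (h1.trans hy.symm)
        have h3 : l = i' := by simpa using h2
        rw [h3] at hlt
        exact hlt le_rfl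
      · right
        refine ⟨l, ?_, rfl⟩
        by_contra hlt
        have h1 := h l (by simp only [i'] at hlt; omega)
        have h4 := (q * π).injective (((QQ_adm hq).mul hπ).rv (ee l) |>.trans (by rw [h1]; rfl) |>.trans hy.symm)
        simp at h4
      · obtain ⟨z', hz'⟩ := hA.of_zz hy
        simp at hz'
    obtain ⟨q', hq', h1, h2⟩ := to_ee i' _ hx
    refine ⟨q' * q, Subgroup.mul_mem _ hq' hq, fun k hk => ?_⟩
    rw [mul_assoc, Equiv.Perm.mul_apply]
    by_cases hk' : k.val < i
    · rw [h k hk', h2 k hk']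
    · have : k = i' := Fin.ext (by simp only [i']; omega)
      rw [this]
      exact h1

/-- The admissible permutations are in the group of the simple reflections up to the swap. -/
theorem sort_all {π : Equiv.Perm (IF m)} (hπ : Adm π) : ∃ q ∈ QQ m, q * π = 1 ∨ q * π = tS := by
  obtain ⟨q, hq, h⟩ := sort_step hπ m le_rfl
  refine ⟨q, hq, ?_⟩
  have hA : Adm (q * π) := (QQ_adm hq).mul hπ
  have hee : ∀ k : Fin m, (q * π) (ee k) = ee k := fun k => h k k.2
  have hff : ∀ k : Fin m, (q * π) (ff k) = ff k := fun k =>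
    (hA.rv (ee k)).trans (by rw [hee]; rfl)
  obtain ⟨z', hz'⟩ := hA.zz 0
  have hz1 : (q * π) vv = inr (1 - z') := by
    have := hA.sw uu
    rw [hz'] at this
    exact this
  rcases fin2_cases z' with rfl | rfl
  · left
    ext x
    rw [Equiv.Perm.one_apply]
    rcases x with (k | k) | z
    · rw [show ((inl (inl k) : IF m)) = ee k from rfl, hee]
    · rw [show ((inl (inr k) : IF m)) = ff k from rfl, hff]
    · rcases fin2_cases z with rfl | rfl
      · exact hz'
      · exact hz1
  · right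
    ext x
    rcases x with (k | k) | z
    · rw [show ((inl (inl k) : IF m)) = ee k from rfl, hee]
      simp [tS, Equiv.swap_apply_def]
    · rw [show ((inl (inr k) : IF m)) = ff k from rfl, hff]
      simp [tS, Equiv.swap_apply_def]
    · rcases fin2_cases z with rfl | rfl
      · have : tS (uu : IF m) = vv := by simp [tS]
        exact hz'.trans this.symm
      · have : tS (vv : IF m) = uu := by simp [tS]
        exact hz1.trans this.symm

end Cfsg.Agent.Lib.OmM.Weyl
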