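import Cfsg.Agent.Lib.OmM.Eich
import Cfsg.Agent.Lib.OmM.Weyl
import Cfsg.Agent.Lib.OmM.Emb

/-!
The group `Ω⁻_{2m+2}(F)` and its root elements.
-/

set_option autoImplicit false
set_option linter.unusedSectionVars false
set_option linter.unusedSimpArgs false

namespace Cfsg.Agent.Lib.OmM.Om

open Matrix QuadraticAlgebra Sum QuadraticMap
open scoped commutatorElement
open Cfsg.Agent.Lib.Linalg.BinaryAniso Cfsg.Agent.Lib.Classical.Orth.Models
open Cfsg.Agent.Lib.Classical.Orth.Basic Cfsg.Agent.Lib.Classical.Orth.Siegel Cfsg.Agent.Lib.Classical.Orth.Generation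
open Cfsg.Agent.Lib.OmM.Basic Cfsg.Agent.Lib.OmM.Eich Cfsg.Agent.Lib.OmM.Weyl Cfsg.Agent.Lib.OmM.Emb
open Cfsg.Agent.Lib.TwBN.Mat Cfsg.Agent.Lib.TwBN.RootGen

section General

variable {ι' : Type} [Fintype ι'] [DecidableEq ι'] {F' : Type*} [Field F'] {Q : QuadraticForm F' (ι' → F')}

theorem eichlerIso_congr {z z' x x' : ι' → F'} (hz : Q z = 0) (hb : polar (⇑Q) z x = 0) (hz' : Q z' = 0)
    (hb' : polar (⇑Q) z' x' = 0) (h1 : z = z') (h2 : x = x') : eichlerIso hz hb = eichlerIso hz' hb' := by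
  subst h1
  subst h2
  rfl

theorem eichler_mem_of_refl {z x y : ι' → F'} (hz : Q z = 0) (hzx : polar (⇑Q) z x = 0) (hQx : Q x ≠ 0)
    (hzy : polar (⇑Q) z y = 0) (hxy : polar (⇑Q) x y ≠ 0) : eichlerIso hz hzx ∈ Cfsg.Omega F' (⇑Q) := by
  set c : F' := - Q x / polar (⇑Q) x y with hc
  have hy' : polar (⇑Q) z (c • y) = 0 := by rw [polar_smul_right', hzy, mul_zero]
  let r := reflectionIso Q x hQx
  have hrz : act r z = z := by
    rw [reflectionIso_act, polar_comm (⇑Q) x z, hzx, mul_zero, zero_smul, sub_zero]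
  have hry : act r (c • y) = c • y + x := by
    rw [reflectionIso_act, polar_smul_right', hc]
    have : (Q x)⁻¹ * (- Q x / polar (⇑Q) x y * polar (⇑Q) x y) = -1 := by
      field_simp
    rw [this]
    simp
  have h1 : r * eichlerIso hz hy' * r⁻¹ * (eichlerIso hz hy')⁻¹ = eichlerIso hz hzx := by
    rw [conj_eichlerIso, eichlerIso_inv]
    rw [eichlerIso_congr _ _ hz (by rw [polar_add_right, hy', hzx, add_zero] : polar (⇑Q) z (c • y + x) = 0) hrz hry,
      eichlerIso_mul]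
    apply eichlerIso_congr _ _ _ _ rfl
    abel
  rw [← h1]
  have := Subgroup.commutator_mem_commutator (Subgroup.mem_top r) (Subgroup.mem_top (eichlerIso hz hy'))
  rwa [commutatorElement_def] at this

end General

variable {F : Type*} [Field F] [Fintype F] {m : ℕ} {a b : F}
variable [hab : Fact (∀ r : F, r ^ 2 ≠ -b + a * r)]

local notation "ι" => algebraMap F (KK a b)

/-- The group. -/
abbrev GG (m : ℕ) (a b : F) := ↥(Cfsg.Omega F ⇑(minusForm m F a b))

/-- The matrices over `K`. -/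
noncomputable def ph : GG m a b →* Matrix (IF m) (IF m) (KK a b) :=
  phi.comp (Cfsg.Omega F ⇑(minusForm m F a b)).subtype

theorem ph_apply (g : GG m a b) : ph g = phi (g : OO m a b) := rfl

theorem ph_inj : Function.Injective (ph : GG m a b →* Matrix (IF m) (IF m) (KK a b)) :=
  fun _ _ h => Subtype.ext (phi_inj h)

theorem ph_inv (g : GG m a b) (r c : IF m) : ph g⁻¹ r c = ph g (rv c) (rv r) :=
  phi_inv (g : OO m a b) r c

theorem ph_star (g : GG m a b) (r c : IF m) : star (ph g r c) = ph g (sw r) (sw c) :=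
  phi_star (g : OO m a b) r c

theorem ph_col_iso (g : GG m a b) (c : IF m) : qy (fun r => ph g r c) = 0 :=
  col_iso (g : OO m a b) c

theorem aniso (z₁ z₂ : F) (h : z₁ ^ 2 + a * z₁ * z₂ + b * z₂ ^ 2 = 0) : z₁ = 0 ∧ z₂ = 0 := by
  have h1 : norm (⟨z₁, z₂⟩ : KK a b) = 0 := by
    rw [norm_apply]
    exact h
  have h2 := QuadraticAlgebra.norm_eq_zero_iff_eq_zero.1 h1
  exact ⟨congrArg QuadraticAlgebra.re h2, congrArg QuadraticAlgebra.im h2⟩

variable (m a b) in
theorem hnd : (polarBilin (minusForm m F a b)).Nondegenerate :=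
  minusForm_nondegenerate m a b aniso

/-! ### Vectors -/

/-- The vector `e_k`. -/
noncomputable def sE (k : Fin m) : IF m → F := Pi.single (ee k) 1
/-- The vector `f_k`. -/
noncomputable def sF (k : Fin m) : IF m → F := Pi.single (ff k) 1
/-- A vector of the anisotropic plane. -/
def vE (m : ℕ) (ξ : KK a b) : IF m → F
  | inr 0 => ξ.re
  | inr 1 => ξ.im
  | inl _ => 0

@[simp] theorem sE_ee (k l : Fin m) : sE (F := F) k (ee l) = if l = k then 1 else 0 := by
  simp [sE, Pi.single_apply]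
@[simp] theorem sE_ff (k l : Fin m) : sE (F := F) k (ff l) = 0 := by
  simp [sE, Pi.single_apply]
@[simp] theorem sE_zz (k : Fin m) (z : Fin 2) : sE (F := F) k (inr z) = 0 := by
  simp [sE, Pi.single_apply]
@[simp] theorem sF_ff (k l : Fin m) : sF (F := F) k (ff l) = if l = k then 1 else 0 := by
  simp [sF, Pi.single_apply]
@[simp] theorem sF_ee (k l : Fin m) : sF (F := F) k (ee l) = 0 := by
  simp [sF, Pi.single_apply]
@[simp] theorem sF_zz (k : Fin m) (z : Fin 2) : sF (F := F) k (inr z) = 0 := by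
  simp [sF, Pi.single_apply]

theorem Q_sE (k : Fin m) : minusForm m F a b (sE k) = 0 := by
  rw [coe_minusForm_apply]
  simp [Cfsg.quadFormMinus]

theorem Q_sF (k : Fin m) : minusForm m F a b (sF k) = 0 := by
  rw [coe_minusForm_apply]
  simp [Cfsg.quadFormMinus]

theorem Q_vE (ξ : KK a b) : minusForm m F a b (vE m ξ) = norm ξ := by
  rw [coe_minusForm_apply, norm_apply]
  simp [Cfsg.quadFormMinus, vE]

theorem pol_sE (k : Fin m) (x : IF m → F) : polar (⇑(minusForm m F a b)) (sE k) x = x (ff k) := by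
  rw [coe_minusForm]
  exact polar_minus_single_inl m a b k x

theorem pol_sF (k : Fin m) (x : IF m → F) : polar (⇑(minusForm m F a b)) (sF k) x = x (ee k) := by
  rw [coe_minusForm]
  exact polar_minus_single_inr m a b k x

theorem hat_sE (k : Fin m) (r : IF m) : hat (a := a) (b := b) (sE k) r = if r = ee k then 1 else 0 := by
  rcases r with (l | l) | z
  · rw [hat_inl]
    simp [sE, Pi.single_apply]
  · rw [hat_inl]
    simp [sE, Pi.single_apply]
  · have : hat (a := a) (b := b) (sE k) (inr z) = 0 := by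
      rcases fin2_cases z with rfl | rfl
      · rw [hat_u]
        simp
      · rw [hat_v]
        simp
    rw [this, if_neg]
    simp

theorem hat_sF (k : Fin m) (r : IF m) : hat (a := a) (b := b) (sF k) r = if r = ff k then 1 else 0 := by
  rcases r with (l | l) | z
  · rw [hat_inl]
    simp [sF, Pi.single_apply]
  · rw [hat_inl]
    simp [sF, Pi.single_apply]
  · have : hat (a := a) (b := b) (sF k) (inr z) = 0 := by
      rcases fin2_cases z with rfl | rfl
      · rw [hat_u]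
        simp
      · rw [hat_v]
        simp
    rw [this, if_neg]
    simp

theorem hat_vE_inl (ξ : KK a b) (y : Fin m ⊕ Fin m) : hat (a := a) (b := b) (vE m ξ) (inl y) = 0 := by
  rw [hat_inl]
  simp [vE]

theorem vE_0 (ξ : KK a b) : vE m ξ (inr 0) = ξ.re := rfl
theorem vE_1 (ξ : KK a b) : vE m ξ (inr 1) = ξ.im := rfl

theorem hat_vE_u (ξ : KK a b) : hat (a := a) (b := b) (vE m ξ) uu = ξ := by
  rw [hat_u, vE_0, vE_1]
  exact (eq_split ξ).symm

theorem hat_vE_v (ξ : KK a b) : hat (a := a) (b := b) (vE m ξ) vv = star ξ := by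
  rw [hat_v, vE_0, vE_1]
  conv_rhs => rw [eq_split ξ]
  rw [star_add, star_mul', star_alg, star_alg]

theorem rv_eq_ee {c : IF m} {k : Fin m} : rv c = ee k ↔ c = ff k := by
  constructor
  · intro h
    rw [← rv_rv c, h]
    rfl
  · rintro rfl
    rfl

theorem rv_eq_ff {c : IF m} {k : Fin m} : rv c = ff k ↔ c = ee k := by
  constructor
  · intro h
    rw [← rv_rv c, h]
    rfl
  · rintro rfl
    rfl

/-- Eichler elements with center `e_k`. -/
theorem phi_eE {k : Fin m} {x : IF m → F} (hb : polar (⇑(minusForm m F a b)) (sE k) x = 0) (r c : IF m) :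
    phi (eichlerIso (Q_sE k) hb) r c = (if r = c then 1 else 0) + hat x r * (if c = ff k then 1 else 0)
      - (if r = ee k then 1 else 0) * hat x (rv c)
      - ι (minusForm m F a b x) * ((if r = ee k then 1 else 0) * (if c = ff k then 1 else 0)) := by
  rw [phi_eichler, hat_sE, hat_sE]
  simp only [rv_eq_ee]

/-- Eichler elements with center `f_k`. -/
theorem phi_eF {k : Fin m} {x : IF m → F} (hb : polar (⇑(minusForm m F a b)) (sF k) x = 0) (r c : IF m) :
    phi (eichlerIso (Q_sF k) hb) r c = (if r = c then 1 else 0) + hat x r * (if c = ee k then 1 else 0)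
      - (if r = ff k then 1 else 0) * hat x (rv c)
      - ι (minusForm m F a b x) * ((if r = ff k then 1 else 0) * (if c = ee k then 1 else 0)) := by
  rw [phi_eichler, hat_sF, hat_sF]
  simp only [rv_eq_ff]

theorem hat_smul (c : F) (x : IF m → F) (r : IF m) : hat (a := a) (b := b) (c • x) r = ι c * hat x r := by
  simp only [hat, mulVec, dotProduct, Finset.mul_sum, Pi.smul_apply, smul_eq_mul, map_mul]
  refine Finset.sum_congr rfl fun t _ => ?_
  ring

theorem card_IF : Fintype.card (IF m) = 2 * m + 2 := by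
  simp
  omega

/-! ### Root elements of the first kind -/

theorem pol_xE {i j : Fin m} (hij : i ≠ j) (c : F) : polar (⇑(minusForm m F a b)) (sE i) ((-c) • sF j) = 0 := by
  rw [pol_sE]
  simp [hij]

theorem two_le {i j : Fin m} (hij : i ≠ j) : 2 ≤ m := by
  have hi := i.2
  have hj := j.2
  have : i.val ≠ j.val := fun e => hij (Fin.ext e)
  omega

/-- The root element with center `e_i`. -/
noncomputable def xE {i j : Fin m} (hij : i ≠ j) (c : F) : GG m a b :=
  ⟨eichlerIso (Q_sE i) (pol_xE hij c), eichler_mem_omega (hnd m a b)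
    (by rw [card_IF]; have := two_le hij; omega) _ _⟩

theorem Q_neg_sF (c : F) (j : Fin m) : minusForm m F a b ((-c) • sF j) = 0 := by
  rw [QuadraticMap.map_smul, Q_sF]
  simp

theorem ph_xE {i j : Fin m} (hij : i ≠ j) (c : F) (r c' : IF m) :
    ph (xE (a := a) (b := b) hij c) r c' = (if r = c' then 1 else 0) + (if r = ee i ∧ c' = ee j then ι c else 0)
      - (if r = ff j ∧ c' = ff i then ι c else 0) := by
  rw [ph_apply]
  show phi (eichlerIso (Q_sE i) (pol_xE hij c)) r c' = _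
  rw [phi_eE, hat_smul, hat_smul, hat_sF, hat_sF, Q_neg_sF]
  simp only [rv_eq_ff, map_neg, map_zero, zero_mul, sub_zero]
  by_cases h1 : r = ff j <;> by_cases h2 : c' = ff i <;> by_cases h3 : r = ee i <;> by_cases h4 : c' = ee j <;>
    simp [h1, h2, h3, h4] <;> ring

/-- The block of a root of the first kind. -/
def fA (i j : Fin m) : Fin 4 → IF m := ![ee i, ee j, ff j, ff i]

theorem fA_inj {i j : Fin m} (hij : i ≠ j) : Function.Injective (fA i j) := by
  intro l l' h
  fin_cases l <;> fin_cases l' <;> simp_all [fA, Ne.symm hij]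

/-- The root element in a block. -/
def x2 (s : KK a b) : Matrix (Fin 4) (Fin 4) (KK a b) := !![1,s,0,0; 0,1,0,0; 0,0,1,-s; 0,0,0,1]
/-- The opposite root element in a block. -/
def y2 (s : KK a b) : Matrix (Fin 4) (Fin 4) (KK a b) := !![1,0,0,0; s,1,0,0; 0,0,1,0; 0,0,-s,1]
/-- The reflection in a block. -/
def e2 : Matrix (Fin 4) (Fin 4) (KK a b) := !![0,1,0,0; -1,0,0,0; 0,0,0,-1; 0,0,1,0]
/-- The inverse reflection in a block. -/
def e2' : Matrix (Fin 4) (Fin 4) (KK a b) := !![0,-1,0,0; 1,0,0,0; 0,0,0,1; 0,0,-1,0]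
/-- The torus element in a block. -/
noncomputable def h2 (s : KK a b) : Matrix (Fin 4) (Fin 4) (KK a b) := !![s,0,0,0; 0,s⁻¹,0,0; 0,0,s,0; 0,0,0,s⁻¹]

theorem fA_out {i j : Fin m} {x : IF m} (hx : ¬ x ∈ Set.range (fA i j)) :
    x ≠ ee i ∧ x ≠ ee j ∧ x ≠ ff j ∧ x ≠ ff i :=
  ⟨fun e => hx ⟨0, e.symm⟩, fun e => hx ⟨1, e.symm⟩, fun e => hx ⟨2, e.symm⟩, fun e => hx ⟨3, e.symm⟩⟩

theorem ph_xE_emb {i j : Fin m} (hij : i ≠ j) (c : F) :
    ph (xE (a := a) (b := b) hij c) = emb (fA i j) (fA_inj hij) (x2 (ι c)) := by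
  apply eq_emb
  · intro l l'
    rw [ph_xE]
    fin_cases l <;> fin_cases l' <;> simp [fA, x2, hij, Ne.symm hij]
  · intro l x hx
    obtain ⟨h0, h1, h2, h3⟩ := fA_out hx
    rw [ph_xE]
    fin_cases l <;> simp [fA, h0, h1, h2, h3, Ne.symm h0, Ne.symm h1, Ne.symm h2, Ne.symm h3, hij]
  · intro l x hx
    obtain ⟨h0, h1, h2, h3⟩ := fA_out hx
    rw [ph_xE]
    fin_cases l <;> simp [fA, h0, h1, h2, h3, Ne.symm h0, Ne.symm h1, Ne.symm h2, Ne.symm h3, hij]
  · intro x y hx hy
    obtain ⟨h0, h1, h2, h3⟩ := fA_out hx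
    rw [ph_xE]
    simp [h0, h2]

theorem ph_yE_emb {i j : Fin m} (hij : i ≠ j) (c : F) :
    ph (xE (a := a) (b := b) hij.symm c) = emb (fA i j) (fA_inj hij) (y2 (ι c)) := by
  apply eq_emb
  · intro l l'
    rw [ph_xE]
    fin_cases l <;> fin_cases l' <;> simp [fA, y2, hij, Ne.symm hij]
  · intro l x hx
    obtain ⟨h0, h1, h2, h3⟩ := fA_out hx
    rw [ph_xE]
    fin_cases l <;> simp [fA, h0, h1, h2, h3, Ne.symm h0, Ne.symm h1, Ne.symm h2, Ne.symm h3, hij]
  · intro l x hx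
    obtain ⟨h0, h1, h2, h3⟩ := fA_out hx
    rw [ph_xE]
    fin_cases l <;> simp [fA, h0, h1, h2, h3, Ne.symm h0, Ne.symm h1, Ne.symm h2, Ne.symm h3, hij]
  · intro x y hx hy
    obtain ⟨h0, h1, h2, h3⟩ := fA_out hx
    rw [ph_xE]
    simp [h1, h3]

theorem e2_eq : x2 (a := a) (b := b) 1 * y2 (-1) * x2 1 = e2 := by
  apply Matrix.ext
  intro i j
  fin_cases i <;> fin_cases j <;> simp [x2, y2, e2, Matrix.mul_apply, Fin.sum_univ_four]

theorem e2'_e2 : e2' (a := a) (b := b) * e2 = 1 := by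
  apply Matrix.ext
  intro i j
  fin_cases i <;> fin_cases j <;> simp [e2, e2', Matrix.mul_apply, Fin.sum_univ_four]

theorem h2_eq {c : KK a b} (hc : c ≠ 0) :
    e2' * x2 c⁻¹ * e2 * x2 c * e2' * x2 c⁻¹ = h2 c := by
  apply Matrix.ext
  intro i j
  fin_cases i <;> fin_cases j <;> simp [x2, e2, e2', h2, Matrix.mul_apply, Fin.sum_univ_four, hc]

/-- The reflection. -/
noncomputable def eA {i j : Fin m} (hij : i ≠ j) : GG m a b :=
  xE hij 1 * xE hij.symm (-1) * xE hij 1

theorem ph_eA {i j : Fin m} (hij : i ≠ j) :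
    ph (eA (a := a) (b := b) hij) = emb (fA i j) (fA_inj hij) e2 := by
  rw [eA, map_mul, map_mul, ph_xE_emb hij, ph_yE_emb hij, ← emb_mul, ← emb_mul, map_one, map_neg, map_one, e2_eq]

/-- The permutation of the block of a root of the first kind. -/
def sA : Equiv.Perm (Fin 4) := Equiv.swap 0 1 * Equiv.swap 2 3
theorem sA_0 : sA 0 = 1 := by decide
theorem sA_1 : sA 1 = 0 := by decide
theorem sA_2 : sA 2 = 3 := by decide
theorem sA_3 : sA 3 = 2 := by decide

theorem isMo_eA {i j : Fin m} (hij : i ≠ j) : IsMo ph (eA (a := a) (b := b) hij) (tA i j) := by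
  have hv : j.val ≠ i.val := fun e => hij (Fin.ext e.symm)
  refine isMo_emb (ph_eA hij) (σ := sA) ?_ ?_ ?_
  · intro l
    fin_cases l
    · simp only [Fin.zero_eta, sA_0]
      show tA i j (ee i) = ee j
      rw [tA_ee, if_pos rfl]
    · simp only [Fin.mk_one, sA_1]
      show tA i j (ee j) = ee i
      rw [tA_ee, if_neg hv, if_pos rfl]
    · simp only [Fin.reduceFinMk, sA_2]
      show tA i j (ff j) = ff i
      rw [tA_ff, if_neg hv, if_pos rfl]
    · simp only [Fin.reduceFinMk, sA_3]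
      show tA i j (ff i) = ff j
      rw [tA_ff, if_pos rfl]
  · intro x hx
    obtain ⟨h0, h1, h2, h3⟩ := fA_out hx
    simp only [tA, Equiv.Perm.mul_apply]
    rw [Equiv.swap_apply_of_ne_of_ne h3 h2, Equiv.swap_apply_of_ne_of_ne h0 h1]
  · intro l l'
    fin_cases l <;> fin_cases l' <;> simp [e2, sA_0, sA_1, sA_2, sA_3]

/-! ### The nodes of the first kind -/

/-- Entries next to the diagonal are opposite. -/
theorem link {u : GG m a b} (hu : IsU ph oo u) {r c : IF m} (h : oo c = oo r + 1) :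
    ph u (rv c) (rv r) = - ph u r c := by
  have h1 := inv_consec hu h
  rw [ph_inv] at h1
  exact h1

/-- Root group and complement meet trivially. -/
theorem Xs_Ys {τ : Equiv.Perm (IF m)} {a' : GG m a b} (h1 : a' ∈ Xs ph oo τ) (h2 : a' ∈ Ys ph oo τ) : a' = 1 := by
  apply ph_inj
  rw [map_one]
  apply Matrix.ext
  intro r c
  by_cases hrc : r = c
  · subst hrc
    rw [h1.1.2, Matrix.one_apply_eq]
  · rw [Matrix.one_apply_ne hrc]
    by_cases h3 : IsInv oo τ r c
    · exact h2.2 r c h3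
    · exact h1.2 r c hrc h3

theorem ph_ee_ee (g : GG m a b) (i j : Fin m) :
    ph g (ee i) (ee j) = ι (((g.1 : GL (IF m) F) : Matrix (IF m) (IF m) F) (ee i) (ee j)) :=
  phi_hh (g : OO m a b) _ _

section NodeA

variable {i j : Fin m} (hij : j.val = i.val + 1)

include hij

theorem ne_of_succ : i ≠ j := by
  rintro rfl
  omega

theorem xE_mem_Xs (c : F) : xE (a := a) (b := b) (ne_of_succ hij) c ∈ Xs ph oo (tA i j) := by
  have hne := ne_of_succ hij
  have hi := i.2
  have hj := j.2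
  refine ⟨⟨fun r c' hrc h => ?_, fun r => ?_⟩, fun r c' hrc hn => ?_⟩
  · rw [ph_xE, if_neg hrc, zero_add]
    have e1 : ¬ (r = ee i ∧ c' = ee j) := by
      rintro ⟨rfl, rfl⟩
      simp at h
      omega
    have e2 : ¬ (r = ff j ∧ c' = ff i) := by
      rintro ⟨rfl, rfl⟩
      simp at h
      omega
    rw [if_neg e1, if_neg e2, sub_zero]
  · rw [ph_xE, if_pos rfl]
    have e1 : ¬ (r = ee i ∧ r = ee j) := by
      rintro ⟨rfl, h⟩
      simp at h
      exact hne h
    have e2 : ¬ (r = ff j ∧ r = ff i) := by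
      rintro ⟨rfl, h⟩
      simp at h
      exact hne h.symm
    rw [if_neg e1, if_neg e2]
    ring
  · rw [ph_xE, if_neg hrc, zero_add]
    have e1 : ¬ (r = ee i ∧ c' = ee j) := by
      rintro ⟨rfl, rfl⟩
      exact hn (inv_tA_ab hij)
    have e2 : ¬ (r = ff j ∧ c' = ff i) := by
      rintro ⟨rfl, rfl⟩
      exact hn (inv_tA_ab' hij)
    rw [if_neg e1, if_neg e2, sub_zero]

theorem ph_xE_ab (c : F) : ph (xE (a := a) (b := b) (ne_of_succ hij) c) (ee i) (ee j) = ι c := by
  have hne := ne_of_succ hij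
  rw [ph_xE]
  simp [hne]

theorem dec_A' {u : GG m a b} (hu : IsU ph oo u) : ∃ c : F, u * (xE (ne_of_succ hij) c)⁻¹ ∈ Ys ph oo (tA i j) := by
  have hne := ne_of_succ hij
  set c : F := ((u.1 : GL (IF m) F) : Matrix (IF m) (IF m) F) (ee i) (ee j) with hc
  refine ⟨c, ?_⟩
  have hx := xE_mem_Xs (a := a) (b := b) hij c
  have hxU : IsU ph oo (xE (a := a) (b := b) hne c) := hx.1
  have hxi : IsU ph oo (xE (a := a) (b := b) hne c)⁻¹ := (Uu ph oo).inv_mem hxU
  have hA : IsU ph oo (u * (xE (a := a) (b := b) hne c)⁻¹) := hu.mul hxi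
  have hoo : oo (ee j : IF m) = oo (ee i : IF m) + 1 := by simp [hij]
  have h0 : ph (u * (xE (a := a) (b := b) hne c)⁻¹) (ee i) (ee j) = 0 := by
    rw [consec_mul hu hxi hoo, inv_consec hxU hoo, ph_xE_ab hij, ph_ee_ee]
    ring
  refine ⟨hA, fun r c' hinv => ?_⟩
  rcases inv_tA hij hinv with ⟨rfl, rfl⟩ | ⟨rfl, rfl⟩
  · exact h0
  · have h1 := link hA hoo
    rw [h0, neg_zero] at h1
    exact h1

theorem dec_A {u : GG m a b} (hu : IsU ph oo u) :
    ∃ a' ∈ Ys ph oo (tA i j), ∃ x ∈ Xs ph oo (tA i j), u = a' * x := by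
  obtain ⟨c, hc⟩ := dec_A' (a := a) (b := b) hij hu
  exact ⟨_, hc, _, xE_mem_Xs hij c, by group⟩

theorem eq_xE {x : GG m a b} (hx : x ∈ Xs ph oo (tA i j)) : ∃ c : F, x = xE (ne_of_succ hij) c := by
  obtain ⟨c, hc⟩ := dec_A' (a := a) (b := b) hij hx.1
  refine ⟨c, ?_⟩
  have h1 : x * (xE (a := a) (b := b) (ne_of_succ hij) c)⁻¹ ∈ Xs ph oo (tA i j) :=
    (Xs ph oo (tA i j)).mul_mem hx ((Xs ph oo (tA i j)).inv_mem (xE_mem_Xs hij c))
  have h2 := Xs_Ys h1 hc
  rwa [mul_inv_eq_one] at h2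

theorem xE_zero : xE (a := a) (b := b) (ne_of_succ hij) 0 = 1 := by
  apply ph_inj
  rw [ph_xE_emb, map_zero, map_one, ← emb_one (f := fA i j) (hf := fA_inj (ne_of_succ hij))]
  congr 1
  apply Matrix.ext
  intro l l'
  fin_cases l <;> fin_cases l' <;> simp [x2]

theorem sl2_A {x : GG m a b} (hx : x ∈ Xs ph oo (tA i j)) :
    eA (a := a) (b := b) (ne_of_succ hij) * x * (eA (ne_of_succ hij))⁻¹ = 1 ∨
      ∃ x₁ ∈ Xs ph oo (tA i j), ∃ h, IsMo ph h 1 ∧ ∃ x₂ ∈ Xs ph oo (tA i j),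
        eA (ne_of_succ hij) * x * (eA (ne_of_succ hij))⁻¹ = x₁ * eA (ne_of_succ hij) * h * x₂ := by
  have hne := ne_of_succ hij
  obtain ⟨c, rfl⟩ := eq_xE (a := a) (b := b) hij hx
  by_cases hc : c = 0
  · subst hc
    left
    rw [xE_zero hij]
    group
  right
  set e := eA (a := a) (b := b) hne with he
  set s : F := c⁻¹ with hs
  set y := xE (a := a) (b := b) hne s with hy
  set x := xE (a := a) (b := b) hne c with hxd
  refine ⟨y⁻¹, (Xs ph oo (tA i j)).inv_mem (xE_mem_Xs hij s), e⁻¹ * y * (e * x * e⁻¹) * y, ?_,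
    y⁻¹, (Xs ph oo (tA i j)).inv_mem (xE_mem_Xs hij s), by group⟩
  have hιc : ι c ≠ 0 := by
    intro h
    exact hc ((algebraMap F (KK a b)).injective (by rw [h, map_zero]))
  have hιs : ι s = (ι c)⁻¹ := by
    rw [hs, map_inv₀]
  have h1 : ph (e⁻¹ * y * (e * x * e⁻¹) * y) = emb (fA i j) (fA_inj hne) (h2 (ι c)) := by
    have e1 : ph e = emb (fA i j) (fA_inj hne) e2 := ph_eA hne
    have e3 : ph e⁻¹ = emb (fA i j) (fA_inj hne) e2' := phi_inv_of_emb e1 e2'_e2
    simp only [map_mul]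
    rw [e1, e3, ph_xE_emb hne s, ph_xE_emb hne c, hιs]
    simp only [← emb_mul]
    rw [← h2_eq hιc]
    simp only [Matrix.mul_assoc]
  refine isMo_one_emb h1 ?_
  have h3 : (ι c)⁻¹ ≠ 0 := inv_ne_zero hιc
  intro l l'
  fin_cases l <;> fin_cases l' <;> simp [h2, hιc, h3]

theorem ne_A : ∃ x ∈ Xs ph oo (tA i j), ∃ r c, IsInv oo (tA i j) r c ∧ ph (a := a) (b := b) x r c ≠ 0 := by
  refine ⟨xE (ne_of_succ hij) 1, xE_mem_Xs hij 1, ee i, ee j, inv_tA_ab hij, ?_⟩
  rw [ph_xE_ab hij, map_one]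
  exact one_ne_zero

end NodeA

end Cfsg.Agent.Lib.OmM.Om
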