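import Cfsg.Agent.Lib.OmM.Om
import Cfsg.Agent.Lib.Classical.Orth.Classes

/-!
The swap of `u` and `v` is not realized in `Ω⁻`: over the quadratic extension the form becomes
split, `Ω` goes into the split `Ω`, and the swap interchanges the two classes of maximal totally
singular subspaces.
-/

set_option autoImplicit false
set_option linter.unusedSectionVars false
set_option linter.unusedSimpArgs false

namespace Cfsg.Agent.Lib.OmM.Parity

open Matrix QuadraticAlgebra Sum Module
open Cfsg.Agent.Lib.Linalg.BinaryAniso Cfsg.Agent.Lib.Classical.Orth.Models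
open Cfsg.Agent.Lib.OmM.Basic Cfsg.Agent.Lib.OmM.Weyl Cfsg.Agent.Lib.OmM.Om
open Cfsg.Agent.Lib.TwBN.Mat

variable {F : Type*} [Field F] [Fintype F] {m : ℕ} {a b : F}
variable [hab : Fact (∀ r : F, r ^ 2 ≠ -b + a * r)]

/-- The bijection of the index sets. -/
def eIdx (m : ℕ) : IF m → Fin (m + 1) ⊕ Fin (m + 1)
  | inl (inl i) => inl i.castSucc
  | inl (inr i) => inr i.castSucc
  | inr z => if z = 0 then inl (Fin.last m) else inr (Fin.last m)

theorem eIdx_inj : Function.Injective (eIdx m) := by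
  rintro ((i | i) | z) ((j | j) | z') h
  · simp only [eIdx, Sum.inl.injEq, Fin.castSucc_inj] at h
    rw [h]
  · simp [eIdx] at h
  · rcases fin2_cases z' with rfl | rfl <;> simp [eIdx] at h
  · simp [eIdx] at h
  · simp only [eIdx, Sum.inr.injEq, Fin.castSucc_inj] at h
    rw [h]
  · rcases fin2_cases z' with rfl | rfl <;> simp [eIdx] at h
  · rcases fin2_cases z with rfl | rfl <;> simp [eIdx] at h
    exact absurd h.symm (Fin.castSucc_lt_last _).ne
  · rcases fin2_cases z with rfl | rfl <;> simp [eIdx] at h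
    exact absurd h.symm (Fin.castSucc_lt_last _).ne
  · rcases fin2_cases z with rfl | rfl <;> rcases fin2_cases z' with rfl | rfl <;> simp [eIdx] at h ⊢

/-- The bijection of the index sets. -/
noncomputable def eI (m : ℕ) : IF m ≃ Fin (m + 1) ⊕ Fin (m + 1) :=
  Equiv.ofBijective (eIdx m) ((Fintype.bijective_iff_injective_and_card _).2
    ⟨eIdx_inj, by simp; omega⟩)

@[simp] theorem eI_ee (i : Fin m) : eI m (ee i) = inl i.castSucc := rfl
@[simp] theorem eI_ff (i : Fin m) : eI m (ff i) = inr i.castSucc := rfl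
@[simp] theorem eI_uu : eI m uu = inl (Fin.last m) := rfl
@[simp] theorem eI_vv : eI m vv = inr (Fin.last m) := rfl

theorem quad_eI (v : Fin (m + 1) ⊕ Fin (m + 1) → KK a b) :
    Cfsg.quadFormPlus (m + 1) (KK a b) v = qy (v ∘ eI m) := by
  simp only [Cfsg.quadFormPlus, qy, Fin.sum_univ_castSucc]
  rfl

/-- The matrices in the split coordinates. -/
noncomputable def psi : OO m a b →* Matrix (Fin (m + 1) ⊕ Fin (m + 1)) (Fin (m + 1) ⊕ Fin (m + 1)) (KK a b) where
  toFun g := (phi g).submatrix (eI m).symm (eI m).symm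
  map_one' := by simp
  map_mul' g h := by simp [Matrix.submatrix_mul_equiv]

theorem psi_apply (g : OO m a b) (x y) : psi g x y = phi g ((eI m).symm x) ((eI m).symm y) := rfl

theorem psi_comp (g : OO m a b) (x : Fin (m + 1) ⊕ Fin (m + 1) → KK a b) :
    (psi g *ᵥ x) ∘ eI m = phi g *ᵥ (x ∘ eI m) := by
  funext r
  simp only [Function.comp, mulVec, dotProduct, psi_apply, Equiv.symm_apply_apply]
  rw [← Equiv.sum_comp (eI m)]
  simp only [Equiv.symm_apply_apply]

theorem psi_iso (g : OO m a b) (x : Fin (m + 1) ⊕ Fin (m + 1) → KK a b) :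
    Cfsg.quadFormPlus (m + 1) (KK a b) (psi g *ᵥ x) = Cfsg.quadFormPlus (m + 1) (KK a b) x := by
  rw [quad_eI, quad_eI, psi_comp, qy_phi]

theorem mem_iso_of {ι' : Type} [Fintype ι'] [DecidableEq ι'] {L : Type*} [Field L] {Q : (ι' → L) → L}
    (g : GL ι' L) (h : ∀ x, Q ((g : Matrix ι' ι' L) *ᵥ x) = Q x) : g ∈ Cfsg.isometryGroup L Q :=
  fun u _ => h u

theorem psiU_mem (g : OO m a b) : MonoidHom.toHomUnits psi g ∈
    Cfsg.isometryGroup (KK a b) (Cfsg.quadFormPlus (m + 1) (KK a b)) :=
  mem_iso_of _ (psi_iso g)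

/-- The base change on the level of isometry groups. -/
noncomputable def Psi : OO m a b →* ↥(Cfsg.isometryGroup (KK a b) (Cfsg.quadFormPlus (m + 1) (KK a b))) :=
  { toFun := fun g => ⟨_, psiU_mem g⟩
    map_one' := Subtype.ext (map_one (psi (m := m) (a := a) (b := b)).toHomUnits)
    map_mul' := fun g h => Subtype.ext (map_mul (psi (m := m) (a := a) (b := b)).toHomUnits g h) }

theorem Psi_coe (g : OO m a b) : (Psi g).1.1 = psi g := rfl

theorem Psi_omega (g : GG m a b) :
    Psi (g : OO m a b) ∈ Cfsg.Omega (KK a b) (Cfsg.quadFormPlus (m + 1) (KK a b)) := by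
  have h1 : (Cfsg.Omega F ⇑(minusForm m F a b)).map Psi ≤
      Cfsg.Omega (KK a b) (Cfsg.quadFormPlus (m + 1) (KK a b)) := by
    rw [Cfsg.Omega, commutator_def, Subgroup.map_commutator]
    exact Subgroup.commutator_mono le_top le_top
  exact h1 (Subgroup.mem_map_of_mem _ g.2)

/-- The swap on the split index set. -/
noncomputable def ss (x : Fin (m + 1) ⊕ Fin (m + 1)) : Fin (m + 1) ⊕ Fin (m + 1) :=
  eI m (tS ((eI m).symm x))

theorem tS_tS (x : IF m) : tS (tS x) = x := Equiv.swap_apply_self _ _ _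

theorem tS_inl (y : Fin m ⊕ Fin m) : tS (inl y : IF m) = inl y := by
  apply Equiv.swap_apply_of_ne_of_ne <;> simp

theorem tS_uu : tS (uu : IF m) = vv := Equiv.swap_apply_left _ _
theorem tS_vv : tS (vv : IF m) = uu := Equiv.swap_apply_right _ _

theorem ss_ss (x : Fin (m + 1) ⊕ Fin (m + 1)) : ss (ss x) = x := by
  simp [ss, tS_tS]

theorem ss_inr_cast (k : Fin m) : ss (inr k.castSucc : Fin (m + 1) ⊕ Fin (m + 1)) = inr k.castSucc := by
  have e : (eI m).symm (inr k.castSucc) = ff k := by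
    rw [Equiv.symm_apply_eq]
    rfl
  rw [ss, e, tS_inl]
  rfl

theorem ss_inr_last : ss (inr (Fin.last m) : Fin (m + 1) ⊕ Fin (m + 1)) = inl (Fin.last m) := by
  have e : (eI m).symm (inr (Fin.last m)) = vv := by
    rw [Equiv.symm_apply_eq]
    rfl
  rw [ss, e, tS_vv]
  rfl

theorem ss_inl_last : ss (inl (Fin.last m) : Fin (m + 1) ⊕ Fin (m + 1)) = inr (Fin.last m) := by
  have e : (eI m).symm (inl (Fin.last m)) = uu := by
    rw [Equiv.symm_apply_eq]
    rfl
  rw [ss, e, tS_uu]
  rfl

section Flip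

variable {g : OO m a b} (hg : ∀ r c, phi g r c ≠ 0 ↔ r = tS c)

include hg in
theorem psi_mulVec (w : Fin (m + 1) ⊕ Fin (m + 1) → KK a b) (r) : (psi g *ᵥ w) r = psi g r (ss r) * w (ss r) := by
  rw [Matrix.mulVec, dotProduct, Finset.sum_eq_single (ss r)]
  · intro k _ hk
    have h1 : psi g r k = 0 := by
      by_contra h1
      have h2 := (hg ((eI m).symm r) ((eI m).symm k)).1 h1
      apply hk
      rw [ss, h2, tS_tS]
      simp
    rw [h1, zero_mul]
  · simp

/-- The map used to compute the intersection. -/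
def ffS (m : ℕ) : Fin (m + 1) ⊕ Unit → Fin (m + 1) ⊕ Fin (m + 1) := Sum.elim (fun k => inr k) (fun _ => inl (Fin.last m))

theorem ffS_inj : Function.Injective (ffS m) := by
  rintro (a | a) (b | b) h
  · simpa [ffS] using h
  · simp [ffS] at h
  · simp [ffS] at h
  · rfl

include hg in
theorem inter_eq {g' : OO m a b} (hg' : ∀ r c, phi g' r c ≠ 0 ↔ r = tS c) (hgg : g * g' = 1) :
    LinearMap.ker (LinearMap.funLeft (KK a b) (KK a b) (Sum.inr : Fin (m + 1) → Fin (m + 1) ⊕ Fin (m + 1))) ⊓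
      (LinearMap.ker (LinearMap.funLeft (KK a b) (KK a b) (Sum.inr : Fin (m + 1) → Fin (m + 1) ⊕ Fin (m + 1)))).map
        (Matrix.mulVecLin (psi g)) =
    LinearMap.ker (LinearMap.funLeft (KK a b) (KK a b) (ffS m)) := by
  have hU : ∀ x : Fin (m + 1) ⊕ Fin (m + 1) → KK a b,
      x ∈ LinearMap.ker (LinearMap.funLeft (KK a b) (KK a b) (Sum.inr : Fin (m + 1) → Fin (m + 1) ⊕ Fin (m + 1))) ↔
      ∀ k, x (inr k) = 0 := by
    intro x
    rw [LinearMap.mem_ker]
    constructor
    · intro h k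
      exact congrFun h k
    · intro h
      funext k
      exact h k
  ext x
  rw [Submodule.mem_inf, Submodule.mem_map, hU, LinearMap.mem_ker]
  have hff : LinearMap.funLeft (KK a b) (KK a b) (ffS m) x = 0 ↔ (∀ k, x (inr k) = 0) ∧ x (inl (Fin.last m)) = 0 := by
    constructor
    · intro h
      exact ⟨fun k => congrFun h (Sum.inl k), congrFun h (Sum.inr ())⟩
    · rintro ⟨h1, h2⟩
      funext k
      rcases k with k | k
      · exact h1 k
      · exact h2
  rw [hff]
  constructor
  · rintro ⟨h1, w, hw, rfl⟩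
    refine ⟨h1, ?_⟩
    have h2 := psi_mulVec hg w (inl (Fin.last m))
    rw [hU] at hw
    rw [ss_inl_last, hw, mul_zero] at h2
    exact h2
  · rintro ⟨h1, h2⟩
    refine ⟨h1, psi g' *ᵥ x, ?_, ?_⟩
    · rw [hU]
      intro k
      rw [psi_mulVec hg' x]
      induction k using Fin.lastCases with
      | last => rw [ss_inr_last, h2, mul_zero]
      | cast k => rw [ss_inr_cast, h1, mul_zero]
    · show (psi g) *ᵥ (psi g' *ᵥ x) = x
      rw [Matrix.mulVec_mulVec, ← map_mul, hgg, map_one, Matrix.one_mulVec]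

include hg in
theorem finrank_inter {g' : OO m a b} (hg' : ∀ r c, phi g' r c ≠ 0 ↔ r = tS c) (hgg : g * g' = 1) :
    finrank (KK a b) ↥(LinearMap.ker (LinearMap.funLeft (KK a b) (KK a b) (Sum.inr : Fin (m + 1) → Fin (m + 1) ⊕ Fin (m + 1))) ⊓
      (LinearMap.ker (LinearMap.funLeft (KK a b) (KK a b) (Sum.inr : Fin (m + 1) → Fin (m + 1) ⊕ Fin (m + 1)))).map
        (Matrix.mulVecLin (psi g))) = m := by
  rw [inter_eq hg hg' hgg]
  have h1 := LinearMap.finrank_range_add_finrank_ker (LinearMap.funLeft (KK a b) (KK a b) (ffS m))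
  have h2 : LinearMap.range (LinearMap.funLeft (KK a b) (KK a b) (ffS m)) = ⊤ :=
    LinearMap.range_eq_top.2 (LinearMap.funLeft_surjective_of_injective _ _ _ ffS_inj)
  rw [h2, finrank_top, Module.finrank_fintype_fun_eq_card, Module.finrank_fintype_fun_eq_card] at h1
  simp only [Fintype.card_sum, Fintype.card_fin, Fintype.card_unit] at h1
  omega

end Flip

theorem card_KK_ne : Fintype.card (KK a b) ≠ 2 := by
  have h : 2 < Fintype.card (KK a b) := by
    rw [Fintype.two_lt_card_iff]
    refine ⟨0, 1, ω, zero_ne_one, ?_, ?_⟩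
    · intro h
      have := congrArg QuadraticAlgebra.im h
      simp at this
    · intro h
      have := congrArg QuadraticAlgebra.im h
      simp at this
  omega

/-- The swap of `u` and `v` is not realized in `Ω⁻`. -/
theorem no_tS (g : GG m a b) : ¬ IsMo ph g tS := by
  intro hg
  have hg1 : ∀ r c, phi (g : OO m a b) r c ≠ 0 ↔ r = tS c := hg
  have hg2 : ∀ r c, phi ((g : OO m a b)⁻¹) r c ≠ 0 ↔ r = tS c := by
    have h := hg.inv
    intro r c
    have h3 := h r c
    rw [show (tS : Equiv.Perm (IF m))⁻¹ = tS from Equiv.swap_inv _ _] at h3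
    exact h3
  have hf := finrank_inter hg1 hg2 (mul_inv_cancel _)
  have hodd : ¬ Even ((m + 1) - m) := by
    rw [show (m + 1) - m = 1 by omega]
    decide
  have hΩ := Psi_omega g
  by_cases h2 : (2 : KK a b) = 0
  · haveI : CharP (KK a b) 2 := CharTwo.of_one_ne_zero_of_two_eq_zero one_ne_zero h2
    have h3 := Cfsg.Agent.Lib.Classical.Orth.Classes.plus_class_iff_omega (m := m + 1) (Or.inl card_KK_ne)
      (Psi (g : OO m a b))
    rw [Psi_coe, hf] at h3
    exact hodd (h3.2 hΩ)
  · have h3 := Cfsg.Agent.Lib.Classical.Orth.Classes.plus_class_iff_det h2 (Psi (g : OO m a b))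
    rw [Psi_coe, hf] at h3
    apply hodd
    rw [h3]
    let f : ↥(Cfsg.isometryGroup (KK a b) (Cfsg.quadFormPlus (m + 1) (KK a b))) →* (KK a b)ˣ :=
      (Matrix.GeneralLinearGroup.det).comp (Cfsg.isometryGroup (KK a b) (Cfsg.quadFormPlus (m + 1) (KK a b))).subtype
    have h4 : Cfsg.Omega (KK a b) (Cfsg.quadFormPlus (m + 1) (KK a b)) ≤ f.ker := by
      rw [Cfsg.Omega, commutator_def, Subgroup.commutator_le]
      intro a _ b _
      rw [MonoidHom.mem_ker, commutatorElement_def]
      simp only [map_mul, map_inv]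
      rw [mul_comm (f a) (f b)]
      group
    have h5 := h4 hΩ
    rw [MonoidHom.mem_ker] at h5
    have h6 := congrArg Units.val h5
    exact h6

end Cfsg.Agent.Lib.OmM.Parity
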