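import Cfsg.Agent.Lib.OmM.Last
import Cfsg.Agent.Lib.OmM.Parity

/-!
The root data of `Ω⁻_{2m+2}`.
-/

set_option autoImplicit false
set_option linter.unusedSectionVars false
set_option linter.unusedSimpArgs false

namespace Cfsg.Agent.Lib.OmM.Rd

open Matrix QuadraticAlgebra Sum QuadraticMap
open Cfsg.Agent.Lib.Linalg.BinaryAniso Cfsg.Agent.Lib.Classical.Orth.Models
open Cfsg.Agent.Lib.OmM.Basic Cfsg.Agent.Lib.OmM.Eich Cfsg.Agent.Lib.OmM.Weyl Cfsg.Agent.Lib.OmM.Emb
open Cfsg.Agent.Lib.OmM.Om Cfsg.Agent.Lib.OmM.Last Cfsg.Agent.Lib.OmM.Parity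
open Cfsg.Agent.Lib.TwBN.Mat Cfsg.Agent.Lib.TwBN.RootGen

variable {F : Type*} [Field F] [Fintype F] {m : ℕ} {a b : F}
variable [hab : Fact (∀ r : F, r ^ 2 ≠ -b + a * r)]

/-- The simple reflections. -/
noncomputable def ej (j : Fin m) : GG m a b :=
  if h : j.val + 1 < m then eA (ne_of_succ (i := j) (j := ⟨j.val + 1, h⟩) rfl) else eL j

theorem ej_A (j : Fin m) (h : j.val + 1 < m) :
    ej (a := a) (b := b) j = eA (ne_of_succ (i := j) (j := ⟨j.val + 1, h⟩) rfl) := dif_pos h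

theorem ej_L (j : Fin m) (h : ¬ j.val + 1 < m) : ej (a := a) (b := b) j = eL j := dif_neg h

theorem isMo_ej (j : Fin m) : IsMo ph (ej (a := a) (b := b) j) (tt j) := by
  by_cases h : j.val + 1 < m
  · rw [ej_A j h, tt_A j h]
    exact isMo_eA _
  · rw [ej_L j h, tt_L j h]
    exact isMo_eL j

/-- The permutation of a monomial element is admissible. -/
theorem adm_of_isMo {g : GG m a b} {π : Equiv.Perm (IF m)} (hg : IsMo ph g π) : Adm π := by
  constructor
  · intro x
    have h1 : ph g⁻¹ x (π x) ≠ 0 := (hg.inv _ _).2 (by simp)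
    rw [ph_inv] at h1
    exact ((hg _ _).1 h1).symm
  · intro x
    have h1 := hg.ne_zero x
    have h2 : ph g (sw (π x)) (sw x) ≠ 0 := by
      rw [← ph_star]
      exact star_ne_zero.2 h1
    exact ((hg _ _).1 h2).symm

theorem liftQ {q : Equiv.Perm (IF m)} (hq : q ∈ QQ m) :
    ∃ w ∈ Subgroup.closure (Set.range (ej (m := m) (a := a) (b := b))), IsMo ph w q := by
  induction hq using Subgroup.closure_induction with
  | mem y hy =>
    obtain ⟨j, rfl⟩ := hy
    exact ⟨ej j, Subgroup.subset_closure ⟨j, rfl⟩, isMo_ej j⟩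
  | one => exact ⟨1, Subgroup.one_mem _, isMo_one⟩
  | mul x y _ _ hx hy =>
    obtain ⟨w, hw, hw'⟩ := hx
    obtain ⟨v, hv, hv'⟩ := hy
    exact ⟨w * v, Subgroup.mul_mem _ hw hv, hw'.mul hv'⟩
  | inv x _ hx =>
    obtain ⟨w, hw, hw'⟩ := hx
    exact ⟨w⁻¹, Subgroup.inv_mem _ hw, hw'.inv⟩

theorem lift' (g : GG m a b) (π : Equiv.Perm (IF m)) (hg : IsMo ph g π) :
    ∃ w ∈ Subgroup.closure (Set.range (ej (m := m) (a := a) (b := b))), IsMo ph w π := by
  obtain ⟨q, hq, h⟩ := sort_all (adm_of_isMo hg)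
  obtain ⟨w, hw, hw'⟩ := liftQ (a := a) (b := b) hq
  have h1 := hw'.mul hg
  rcases h with h | h
  · refine ⟨w⁻¹, Subgroup.inv_mem _ hw, ?_⟩
    have h2 := hw'.inv
    have e : q⁻¹ = π := inv_eq_of_mul_eq_one_right h
    rwa [e] at h2
  · rw [h] at h1
    exact absurd h1 (no_tS _)

/-- The root data of `Ω⁻_{2m+2}`. -/
noncomputable def rd : RD (ph (m := m) (a := a) (b := b)) oo (Fin m) where
  e := ej
  τ := tt
  he := isMo_ej
  hτ := tt_sq
  inj := tt_inj
  lift := lift'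
  dec := by
    intro j u hu
    by_cases h : j.val + 1 < m
    · rw [tt_A j h]
      exact dec_A rfl hu
    · rw [tt_L j h]
      exact dec_L (by have := j.2; omega) hu
  sl2 := by
    intro j x hx
    by_cases h : j.val + 1 < m
    · rw [tt_A j h] at hx ⊢
      rw [ej_A j h]
      exact sl2_A rfl hx
    · rw [tt_L j h] at hx ⊢
      rw [ej_L j h]
      exact sl2_L (by have := j.2; omega) hx
  dich := fun j g π hg => dich (adm_of_isMo hg) j
  ne := by
    intro j
    by_cases h : j.val + 1 < m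
    · rw [tt_A j h]
      exact ne_A rfl
    · rw [tt_L j h]
      exact ne_L (by have := j.2; omega)
  lev := fun g π hg r c e => (adm_of_isMo hg).lev r c e

end Cfsg.Agent.Lib.OmM.Rd
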